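import Cfsg.Agent.PS2.Defs

/-! Groups of the order of `PSL₂(p²)` (notes/PS2.md, section Ar). -/

set_option autoImplicit false
set_option linter.unusedSectionVars false
set_option linter.unusedVariables false

namespace Cfsg.Agent.PS2

open Subgroup Cfsg.Agent.H49

variable {G : Type*} [Group G] [Finite G] {p : ℕ} [Fact p.Prime] {m : ℕ} {S : Subgroup G}

theorem ar_sq {n : ℕ} (h : 0 < n) : n ^ 2 - 1 = (n - 1) * (n + 1) := by
  obtain ⟨q, rfl⟩ : ∃ q, n = q + 1 := ⟨n - 1, by omega⟩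
  refine Nat.sub_eq_of_eq_add ?_
  rw [Nat.add_sub_cancel]
  ring

theorem ar_four {n : ℕ} (h : 0 < n) : n ^ 4 - 1 = (n ^ 2 - 1) * (n ^ 2 + 1) := by
  rw [← ar_sq (pow_pos h 2), ← pow_mul]

theorem ar_two {r n : ℕ} (hn : 0 < n) (h1 : r ∣ n - 1) (h2 : r ∣ n + 1) : r ∣ 2 := by
  have := Nat.dvd_sub h2 h1
  rwa [show n + 1 - (n - 1) = 2 by omega] at this

theorem ar_one {i : ℕ} (h1 : i ≡ 1 [MOD p]) : ∃ a, i = 1 + p * a := by
  have hp : p.Prime := Fact.out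
  have e : i % p = 1 := by rw [h1, Nat.mod_eq_of_lt hp.one_lt]
  exact ⟨i / p, by have := Nat.mod_add_div i p; omega⟩

theorem ar_odd (h5 : 5 < p) : ∃ c, p = 2 * c + 1 := (Fact.out : p.Prime).odd_of_ne_two (by omega)

theorem ndvd {n : ℕ} (hd : 2 * n ∣ p ^ 4 - 1) : ¬ p ∣ n := by
  have hp : p.Prime := Fact.out
  intro h
  have h1 : p ∣ p ^ 4 - 1 := (h.mul_left 2).trans hd
  have h2 := Nat.dvd_sub (dvd_pow_self p (show 4 ≠ 0 by omega)) h1
  rw [Nat.sub_sub_self (Nat.one_le_pow _ _ hp.pos)] at h2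
  exact hp.one_lt.ne' (Nat.dvd_one.1 h2)

theorem dv_sq {i : ℕ} (h : i ∣ p ^ 2 + 1) (h1 : i ≡ 1 [MOD p]) : i = 1 ∨ i = p ^ 2 + 1 := by
  have hp : p.Prime := Fact.out
  obtain ⟨w, hw⟩ := h
  have h2 : w ≡ 1 [MOD p] := by
    have e1 : i * w ≡ 1 * w [MOD p] := h1.mul_right w
    have e2 : p ^ 2 + 1 ≡ 0 + 1 [MOD p] :=
      ((Nat.modEq_zero_iff_dvd).2 (dvd_pow_self p (by omega))).add_right 1
    rw [one_mul, ← hw] at e1
    exact e1.symm.trans e2
  obtain ⟨a, ha⟩ := ar_one h1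
  obtain ⟨b, hb⟩ := ar_one h2
  rcases Nat.eq_zero_or_pos a with rfl | a0
  · left; omega
  rcases Nat.eq_zero_or_pos b with rfl | b0
  · right; rw [hw, hb]; simp
  exfalso
  have e1 : 1 + p ≤ i := by rw [ha]; nlinarith
  have e2 : 1 + p ≤ w := by rw [hb]; nlinarith
  have e3 := Nat.mul_le_mul e1 e2
  have := hp.pos
  nlinarith

theorem sq_mod (h5 : 5 < p) : (p ^ 2 + 1) % 4 = 2 ∧ 8 ∣ p ^ 2 - 1 ∧ p ^ 4 - 1 = (p ^ 2 - 1) * (p ^ 2 + 1) ∧
    p ^ 2 - 1 = (p - 1) * (p + 1) := by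
  obtain ⟨c, hc⟩ := ar_odd h5
  refine ⟨?_, ?_, ar_four (by omega), ar_sq (by omega)⟩
  · have : p ^ 2 + 1 = 2 + 4 * (c * c + c) := by rw [hc]; ring
    omega
  · obtain ⟨d, hd⟩ := (Nat.even_mul_succ_self c).two_dvd
    have : p ^ 2 = 1 + 4 * (c * (c + 1)) := by rw [hc]; ring
    exact ⟨d, by omega⟩

theorem pp (h5 : 5 < p) {r k : ℕ} (hr : r.Prime) (hk : 0 < k) (hd : 2 * r ^ k ∣ p ^ 4 - 1)
    (h1 : r ^ k ≡ 1 [MOD p]) : r = 2 ∧ r ^ k = p + 1 := by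
  obtain ⟨s1, -, s3, s4⟩ := sq_mod h5
  obtain ⟨c, hc⟩ := ar_odd h5
  obtain ⟨a, ha⟩ := ar_one h1
  have l1 : 1 < r ^ k := Nat.one_lt_pow hk.ne' hr.one_lt
  have a0 : 0 < a := by
    rcases Nat.eq_zero_or_pos a with rfl | a0
    · omega
    · exact a0
  have l2 : p + 1 ≤ r ^ k := by rw [ha]; nlinarith
  rw [s3] at hd
  by_cases r2 : r = 2
  · subst r2
    refine ⟨rfl, ?_⟩
    obtain ⟨o, ho⟩ : ∃ o, p ^ 2 + 1 = 2 * (2 * o + 1) := ⟨(p ^ 2 + 1) / 4, by omega⟩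
    rw [ho, mul_left_comm] at hd
    have d1 := Nat.dvd_of_mul_dvd_mul_left two_pos hd
    have d2 : 2 ^ k ∣ p ^ 2 - 1 :=
      (Nat.Coprime.pow_left k (Nat.coprime_two_left.2 ⟨o, rfl⟩)).dvd_of_dvd_mul_right d1
    obtain ⟨j, rfl⟩ : ∃ j, k = j + 2 := by
      refine ⟨k - 2, ?_⟩
      by_contra n
      have : k = 1 := by omega
      subst this
      omega
    have e : p ^ 2 - 1 = 4 * (c * (c + 1)) := by
      have : p ^ 2 = 1 + 4 * (c * (c + 1)) := by rw [hc]; ring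
      omega
    rw [e, pow_add, mul_comm] at d2
    have d3 : 2 ^ j ∣ c * (c + 1) := Nat.dvd_of_mul_dvd_mul_left (by norm_num) d2
    have d4 : 2 ^ j ≤ c + 1 := by
      rcases Nat.even_or_odd c with e1 | e1
      · have := (Nat.Coprime.pow_left j (Nat.coprime_two_left.2 e1.add_one)).dvd_of_dvd_mul_right d3
        exact (Nat.le_of_dvd (by omega) this).trans (Nat.le_succ _)
      · have := (Nat.Coprime.pow_left j (Nat.coprime_two_left.2 e1)).dvd_of_dvd_mul_left d3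
        exact Nat.le_of_dvd (by omega) this
    rw [pow_add] at ha l2 ⊢
    have a3 : a < 3 := by
      by_contra n
      have := Nat.mul_le_mul_left p (not_lt.1 n)
      omega
    obtain rfl | rfl : a = 1 ∨ a = 2 := by omega
    · omega
    · omega
  · exfalso
    have od : Odd (r ^ k) := (hr.odd_of_ne_two r2).pow
    obtain ⟨u, hu⟩ := od
    have n2 : ¬ r ∣ 2 := fun h => r2 ((Nat.prime_dvd_prime_iff_eq hr Nat.prime_two).1 h)
    have d0 : r ^ k ∣ (p ^ 2 - 1) * (p ^ 2 + 1) := (dvd_mul_left _ _).trans hd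
    by_cases q1 : r ∣ p ^ 2 + 1
    · have q2 : ¬ r ∣ p ^ 2 - 1 := fun h => n2 (ar_two (pow_pos (by omega) 2) h q1)
      have d1 := (Nat.Coprime.pow_left k ((hr.coprime_iff_not_dvd).2 q2)).dvd_of_dvd_mul_left d0
      rcases dv_sq d1 h1 with e | e <;> omega
    · have d1 := (Nat.Coprime.pow_left k ((hr.coprime_iff_not_dvd).2 q1)).dvd_of_dvd_mul_right d0
      rw [s4] at d1
      by_cases q2 : r ∣ p + 1
      · have q3 : ¬ r ∣ p - 1 := fun h => n2 (ar_two (by omega) h q2)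
        have d2 := (Nat.Coprime.pow_left k ((hr.coprime_iff_not_dvd).2 q3)).dvd_of_dvd_mul_left d1
        have := Nat.le_of_dvd (by omega) d2
        omega
      · have d2 := (Nat.Coprime.pow_left k ((hr.coprime_iff_not_dvd).2 q2)).dvd_of_dvd_mul_right d1
        have := Nat.le_of_dvd (by omega) d2
        omega

theorem Mer.eight (hM : Mer p) (h5 : 5 < p) : 8 ∣ p + 1 := by
  obtain ⟨b, hb⟩ := hM
  rw [hb]
  refine pow_dvd_pow 2 (show 3 ≤ b from ?_)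
  by_contra n
  have : 2 ^ b ≤ 2 ^ 2 := Nat.pow_le_pow_right two_pos (by omega)
  omega

theorem Mer.four (hM : Mer p) (h5 : 5 < p) {n : ℕ} (hd : 2 * n ∣ p ^ 4 - 1) : ¬ 4 * (p + 1) ∣ n := by
  intro h
  obtain ⟨-, -, s3, s4⟩ := sq_mod h5
  have d1 : 2 * (4 * (p + 1)) ∣ p ^ 4 - 1 := (Nat.mul_dvd_mul_left 2 h).trans hd
  rw [s3, s4, show 2 * (4 * (p + 1)) = (p + 1) * 8 by ring,
    show (p - 1) * (p + 1) * (p ^ 2 + 1) = (p + 1) * ((p - 1) * (p ^ 2 + 1)) by ring] at d1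
  have d2 := Nat.dvd_of_mul_dvd_mul_left (by omega) d1
  have e := hM.eight h5
  have e1 : p % 8 = 7 := by omega
  have e2 : (p - 1) % 8 = 6 := by omega
  have e3 : (p ^ 2 + 1) % 8 = 2 := by rw [Nat.add_mod, Nat.pow_mod, e1]
  have e4 := (Nat.dvd_iff_mod_eq_zero ..).1 d2
  rw [Nat.mul_mod, e2, e3] at e4
  omega

theorem ti_num {n u s : ℕ} (h : n * u = p ^ 4 - 1) (hn : n = 1 + p ^ 2 * s) (hs : 0 < s) :
    n = p ^ 2 + 1 ∧ u = p ^ 2 - 1 := by
  have hp : p.Prime := Fact.out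
  have q4 : 4 ≤ p ^ 2 := by have := hp.two_le; nlinarith
  have e0 : p ^ 4 = p ^ 2 * p ^ 2 := by ring
  have e4 := ar_four hp.pos
  rw [e0] at h
  generalize p ^ 2 = Q at *
  have e1 : n * u + 1 = Q * Q := by
    have : 0 < Q * Q := by positivity
    omega
  have d : Q ∣ u + 1 := by
    have e2 : u + 1 + Q * (s * u) = Q * Q := by rw [← e1, hn]; ring
    exact (Nat.dvd_add_left (dvd_mul_right Q (s * u))).1 (e2 ▸ dvd_mul_right Q Q)
  have l1 : Q ≤ u + 1 := Nat.le_of_dvd (by omega) d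
  have l2 : Q + 1 ≤ n := by rw [hn]; nlinarith
  have l3 : n = Q + 1 := by
    by_contra q
    have l4 : Q + 2 ≤ n := by omega
    have := Nat.mul_le_mul l4 l1
    nlinarith
  refine ⟨l3, ?_⟩
  rw [l3, ← e0, e4, mul_comm] at h
  exact Nat.eq_of_mul_eq_mul_right (by omega) h

theorem mer_num {n u s a : ℕ} (h : n * u = p ^ 4 - 1) (hn : n = 1 + a * p + p ^ 2 * s) (hs : 0 < s)
    (ha : 0 < a) (ha' : a ≤ p + 1) (hau : a ∣ u) : a = 1 ∧ n = (p + 1) * (p ^ 2 + 1) := by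
  have hp : p.Prime := Fact.out
  have p2 := hp.two_le
  have e1 : n * u + 1 = p ^ 4 := by
    have : 0 < p ^ 4 := pow_pos hp.pos 4
    omega
  have d : p ∣ u + 1 := by
    have e2 : u + 1 + p * ((a + p * s) * u) = p ^ 4 := by rw [← e1, hn]; ring
    exact (Nat.dvd_add_left (dvd_mul_right p _)).1 (e2 ▸ dvd_pow_self p (by omega))
  obtain ⟨t, ht⟩ := d
  have t0 : 0 < t := by
    rcases Nat.eq_zero_or_pos t with rfl | t0
    · omega
    · exact t0
  have l1 : p ^ 2 ≤ n := by rw [hn]; nlinarith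
  have l2 : u < p ^ 2 := by
    by_contra q
    have := Nat.mul_le_mul l1 (not_lt.1 q)
    have e0 : p ^ 4 = p ^ 2 * p ^ 2 := by ring
    omega
  have tp : t ≤ p := by
    by_contra q
    have := Nat.mul_le_mul_left p (show p + 1 ≤ t by omega)
    nlinarith
  have z : (t : ℤ) - a = p * ((p : ℤ) ^ 2 - a * t - p * s * t + s) := by
    have z1 : ((1 + a * p + p ^ 2 * s : ℕ) : ℤ) * u + 1 = (p : ℤ) ^ 4 := by rw [← hn]; exact_mod_cast e1
    have z2 : (u : ℤ) = p * t - 1 := by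
      have : (u : ℤ) + 1 = p * t := by exact_mod_cast ht
      linarith
    have p0 : (p : ℤ) ≠ 0 := by exact_mod_cast hp.pos.ne'
    apply mul_left_cancel₀ p0
    push_cast at z1
    rw [z2] at z1
    linear_combination z1
  generalize (p : ℤ) ^ 2 - a * t - p * s * t + s = c at z
  have b1 : (1 : ℤ) ≤ t := by exact_mod_cast t0
  have b2 : (t : ℤ) ≤ p := by exact_mod_cast tp
  have b3 : (1 : ℤ) ≤ a := by exact_mod_cast ha
  have b4 : (a : ℤ) ≤ p + 1 := by exact_mod_cast ha'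
  have b5 : (2 : ℤ) ≤ p := by exact_mod_cast p2
  have c1 : c < 1 := by nlinarith
  have c2 : -2 < c := by nlinarith
  obtain rfl | rfl : c = 0 ∨ c = -1 := by omega
  · have ta : t = a := by omega
    subst ta
    have a1 : t = 1 := Nat.dvd_one.1 ((Nat.dvd_add_right hau).1 (ht ▸ dvd_mul_left t p))
    refine ⟨a1, ?_⟩
    have up : u = p - 1 := by rw [a1] at ht; omega
    rw [up, ar_four hp.pos, ar_sq hp.pos, mul_assoc, mul_comm] at h
    exact Nat.eq_of_mul_eq_mul_left (by omega) h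
  · exfalso
    have t1 : t = 1 := by omega
    have ap : a = p + 1 := by omega
    rw [t1] at ht
    have := Nat.le_of_dvd (by omega) hau
    omega

theorem k_dvd (h5 : 5 < p) {k H : ℕ} (hk : k ∣ H) (hH : 2 * H ∣ p ^ 2 - 1)
    (h : (p + 1) * p * k ∣ p ^ 2 * (p ^ 2 + 1) * H) : k ∣ p - 1 := by
  have hp : p.Prime := Fact.out
  obtain ⟨s1, -, -, s4⟩ := sq_mod h5
  obtain ⟨o, ho⟩ : ∃ o, p ^ 2 + 1 = 2 * (2 * o + 1) := ⟨(p ^ 2 + 1) / 4, by omega⟩
  have k1 : k ∣ p ^ 2 - 1 := (hk.mul_left 2).trans hH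
  have d1 : (p + 1) * p * k ∣ p ^ 2 * (2 * o + 1) * (p ^ 2 - 1) := by
    refine h.trans ?_
    rw [ho, show p ^ 2 * (2 * (2 * o + 1)) * H = p ^ 2 * (2 * o + 1) * (2 * H) by ring]
    exact Nat.mul_dvd_mul_left _ hH
  rw [s4, show p ^ 2 * (2 * o + 1) * ((p - 1) * (p + 1)) = (p + 1) * p * (p * ((2 * o + 1) * (p - 1))) by ring] at d1
  have d2 := Nat.dvd_of_mul_dvd_mul_left (Nat.mul_pos (by omega) hp.pos) d1
  have c1 : k.Coprime p := by
    refine ((hp.coprime_iff_not_dvd).2 fun q => ?_).symm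
    have h2 := Nat.dvd_sub (dvd_pow_self p (show 2 ≠ 0 by omega)) (q.trans k1)
    rw [Nat.sub_sub_self (Nat.one_le_pow _ _ hp.pos)] at h2
    exact hp.one_lt.ne' (Nat.dvd_one.1 h2)
  have c2 : k.Coprime (2 * o + 1) := by
    refine Nat.coprime_of_dvd fun r hr q1 q2 => ?_
    have q3 := ar_two (pow_pos hp.pos 2) (q1.trans k1) (ho ▸ q2.mul_left 2)
    rw [(Nat.prime_dvd_prime_iff_eq hr Nat.prime_two).1 q3] at q2
    omega
  exact c2.dvd_of_dvd_mul_left (c1.dvd_of_dvd_mul_left d2)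

end Cfsg.Agent.PS2
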