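import Cfsg.Agent.PS2.BaseA
import Cfsg.Agent.H42.ZStar

/-! Groups of the order of `PSL₂(p²)` (notes/PS2.md, section Base). -/

set_option autoImplicit false
set_option linter.unusedSectionVars false

namespace Cfsg.Agent.PS2

open Subgroup Cfsg.Agent.H49

variable {G : Type*} [Group G] [Finite G] {p : ℕ} [Fact p.Prime] {m : ℕ} {S : Subgroup G}

namespace Core

variable (h : Core p G S m)
include h

theorem le_of_norm {U : Subgroup G} (hU : U ≠ ⊥) (hS : S ≤ 𝒩(U)) : S ≤ U := by
  have := h.simple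
  have := h.nS
  have n : (U.subgroupOf S).Normal :=
    ⟨fun x hx s => (mem_normalizer_iff.1 (hS s.2) _).1 hx⟩
  rcases n.eq_bot_or_eq_top with e | e
  · refine absurd (le_bot_iff.1 (le_trans (fun u hu s hs => ?_) h.cS.le)) hU
    have : (⟨s * (u * s⁻¹ * u⁻¹), mul_mem hs (h.nS.conj_mem _ (inv_mem hs) u)⟩ : S) ∈ U.subgroupOf S := by
      have := mul_mem ((mem_normalizer_iff.1 (hS hs) _).1 hu) (inv_mem hu)
      simpa only [mem_subgroupOf, mul_assoc] using this
    rw [e, mem_bot] at this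
    have : s * (u * s⁻¹ * u⁻¹) = 1 := congrArg Subtype.val this
    calc s * u = s * (u * s⁻¹ * u⁻¹) * (u * s) := by group
      _ = u * s := by rw [this, one_mul]
  · exact subgroupOf_eq_top.1 e

theorem not_pgroup {r : ℕ} (hr : r.Prime) {N : Subgroup G} (hN : N.Normal) (hp : IsPGroup r N) : N = ⊥ := by
  by_contra n
  have := Fact.mk hr
  obtain ⟨k, e⟩ := IsPGroup.iff_card.1 (hp.to_le (h.le_of_norm n (le_normalizer_of_normal)))
  have h1 := (Nat.prime_dvd_prime_iff_eq Fact.out hr).1 ((Fact.out : p.Prime).dvd_of_dvd_pow (e ▸ h.pS))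
  have h2 := (Nat.prime_dvd_prime_iff_eq Nat.prime_two hr).1
    (Nat.prime_two.dvd_of_dvd_pow (e ▸ (show 2 ∣ 4 by norm_num).trans h.four))
  have := h.h5
  omega

theorem not_normal (Q : Sylow p G) : ¬ (Q : Subgroup G).Normal := fun n => by
  have := h.toSc.cardP Q
  rw [h.not_pgroup Fact.out n Q.2, card_bot] at this
  have := h.h5
  nlinarith

theorem sign (f : G →* ℤˣ) (g : G) : f g = 1 := by
  obtain ⟨Q⟩ : Nonempty (Sylow p G) := inferInstance
  have k : (Q : Subgroup G) ≤ f.ker := fun x hx => by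
    have := congrArg f (h.toSc.pow_eq Q hx)
    rw [map_pow, map_one] at this
    rcases Int.units_eq_one_or (f x) with e | e
    · exact e
    · rw [e, (((Fact.out : p.Prime).odd_of_ne_two (by have := h.h5; omega)).pow).neg_one_pow] at this
      exact absurd this (by decide)
  have := h.le_of_norm (U := f.ker) (fun e => h.not_normal Q (by
    rw [le_bot_iff.1 (k.trans e.le)]; infer_instance)) le_normalizer_of_normal
  exact (h.sup Q).ge.trans (sup_le this k) (mem_top g)

theorem zstar {z : G} (oz : orderOf z = 2) : ∃ t, IsConj z t ∧ t ≠ z ∧ z * t = t * z := by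
  by_contra! k
  obtain ⟨N, n, o, e⟩ := H42.zstar (z := z) ⟨oz, fun t h1 =>
    by_contra fun h3 => k _ (isConj_iff.2 ⟨t, rfl⟩) h3 h1⟩
  have b : N = ⊥ := by_contra fun b => (Nat.not_even_iff_odd.2 o) (even_iff_two_dvd.2
    ((show 2 ∣ 4 by norm_num).trans (h.four.trans
      (card_dvd_of_le (h.le_of_norm b le_normalizer_of_normal)))))
  have : z ∈ 𝒞(S) := fun s _ => by
    have := mem_bot.1 (b ▸ e s)
    rw [mul_inv_eq_one, mul_inv_eq_iff_eq_mul] at this
    exact this.symm
  rw [h.cS, mem_bot] at this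
  rw [this, orderOf_one] at oz
  omega

theorem faithful {g : G} (hg : ∀ Q : Sylow p G, g • Q = Q) : g = 1 := by
  by_contra n
  have k := h.le_of_norm (U := (MulAction.toPermHom G (Sylow p G)).ker)
    (fun e => n (mem_bot.1 (e ▸ Equiv.ext hg))) le_normalizer_of_normal
  obtain ⟨x, hx⟩ := exists_prime_orderOf_dvd_card' p h.pS
  have ox : orderOf (x : G) = p := (orderOf_coe x).trans hx
  obtain ⟨Q, hQ⟩ := (IsPGroup.of_card (n := 1) (p := p) (G := zpowers (x : G))
    (by rw [Nat.card_zpowers, ox, pow_one])).exists_le_sylow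
  have := h.le_of_norm (U := Q) (fun e => h.not_normal Q (by rw [e]; infer_instance)) fun s hs =>
    Sylow.smul_eq_iff_mem_normalizer.1 (Equiv.congr_fun (k hs) Q)
  have e := h.not_pgroup Fact.out h.nS (Q.2.to_le this)
  rw [mem_bot.1 (e ▸ x.2 : (x : G) ∈ ⊥), orderOf_one] at ox
  have := h.h5
  omega

end Core

end Cfsg.Agent.PS2
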