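import Cfsg.Agent.PS2.Ar

/-! Groups of the order of `PSL₂(p²)` (notes/PS2.md, section BaseA). -/

set_option autoImplicit false
set_option linter.unusedSectionVars false

namespace Cfsg.Agent.PS2

open Subgroup Cfsg.Agent.H49

variable {G : Type*} [Group G] [Finite G] {p : ℕ} [Fact p.Prime] {m : ℕ} {S : Subgroup G}

/-- two subgroups of `H` of the order of a Sylow subgroup of `H` are conjugate in `H` -/
theorem BaseA.conj_in {H A B : Subgroup G} {k : ℕ} (hA : A ≤ H) (hB : B ≤ H)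
    (cA : Nat.card A = p ^ k) (cB : Nat.card B = p ^ k) (hH : ¬ p ^ (k + 1) ∣ Nat.card H) :
    ∃ g ∈ H, cj g A = B := by
  have key : ∀ {A : Subgroup G}, A ≤ H → Nat.card A = p ^ k →
      ∃ Q : Sylow p H, (Q : Subgroup H) = A.subgroupOf H := by
    intro A hA cA
    have c : Nat.card (A.subgroupOf H) = p ^ k := by
      rw [Nat.card_congr (subgroupOfEquivOfLe hA).toEquiv, cA]
    refine ⟨(IsPGroup.of_card c).toSylow fun hd => hH ?_, rfl⟩
    rw [← (A.subgroupOf H).card_mul_index, c, pow_succ]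
    exact Nat.mul_dvd_mul_left _ hd
  obtain ⟨QA, eA⟩ := key hA cA
  obtain ⟨QB, eB⟩ := key hB cB
  obtain ⟨g, hg⟩ := MulAction.exists_smul_eq H QA QB
  refine ⟨g, g.2, eq_of_le_of_card_ge ?_ (by rw [card_cj, cA, cB])⟩
  intro x hx
  obtain ⟨y, hy, rfl⟩ := mem_cj'.1 hx
  have h1 : (⟨y, hA hy⟩ : H) ∈ (QA : Subgroup H) := by rw [eA]; exact hy
  have h2 : g * ⟨y, hA hy⟩ * g⁻¹ ∈ ((g • QA : Sylow p H) : Subgroup H) := by
    rw [Sylow.coe_subgroup_smul]
    exact Subgroup.smul_mem_pointwise_smul _ (MulAut.conj g) _ h1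
  rw [hg, eB] at h2
  exact h2

theorem two_dvd_relIndex {E H : Subgroup G} {x : G} (hx : x ∈ H) (hn : x ∈ 𝒩(E)) (hE : E ≤ H) (h1 : x ∉ E)
    (h2 : x * x ∈ E) : 2 ∣ E.relIndex H := by
  let L : Subgroup G := 𝒩(E) ⊓ H
  haveI : (E.subgroupOf L).Normal := normal_subgroupOf inf_le_left
  let y : L := ⟨x, hn, hx⟩
  have o : orderOf (QuotientGroup.mk y : L ⧸ E.subgroupOf L) = 2 := by
    apply orderOf_eq_prime
    · rw [← QuotientGroup.mk_pow, QuotientGroup.eq_one_iff, pow_two]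
      exact h2
    · intro e
      exact h1 ((QuotientGroup.eq_one_iff y).1 e)
  have d : 2 ∣ E.relIndex L := o ▸ orderOf_dvd_natCard _
  rw [← relIndex_mul_relIndex E L H (le_inf le_normalizer hE) inf_le_right]
  exact d.mul_right _

theorem cent_of_norm {x y : G} (ox : orderOf x = p) (hy : y ∈ 𝒩(zpowers x)) {k : ℕ} (hk : y ^ p ^ k = 1) :
    y ∈ 𝒞[x] := by
  have hp : p.Prime := Fact.out
  let f := (zpowers x).normalizerMonoidHom ⟨y, hy⟩
  have d1 : orderOf f ∣ p ^ k := by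
    apply orderOf_dvd_of_pow_eq_one
    rw [← map_pow]
    have : (⟨y, hy⟩ : 𝒩(zpowers x)) ^ p ^ k = 1 := Subtype.ext hk
    rw [this, map_one]
  have d2 : orderOf f ∣ p - 1 := by
    have := orderOf_dvd_natCard f
    rwa [IsCyclic.card_mulAut, Nat.card_zpowers, ox, Nat.totient_prime hp] at this
  have c : Nat.Coprime (p ^ k) (p - 1) := by
    apply Nat.Coprime.pow_left
    exact (Nat.coprime_self_sub_right hp.one_le).2 (Nat.coprime_one_right p)
  have o : f = 1 := orderOf_eq_one_iff.1 (Nat.eq_one_of_dvd_coprimes c d1 d2)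
  have : (⟨y, hy⟩ : 𝒩(zpowers x)) ∈ (zpowers x).normalizerMonoidHom.ker := o
  rw [normalizerMonoidHom_ker, mem_subgroupOf] at this
  rwa [← cent_zpowers]

theorem mem_of_norm (Q : Sylow p G) {g : G} (hg : g ∈ 𝒩((Q : Subgroup G))) {k : ℕ} (hk : g ^ p ^ k = 1) :
    g ∈ Q := by
  have hp : IsPGroup p (zpowers g) := by
    rintro ⟨_, n, rfl⟩
    refine ⟨k, Subtype.ext ?_⟩
    show (g ^ n) ^ p ^ k = 1
    rw [← zpow_natCast, ← zpow_mul, mul_comm, zpow_mul, zpow_natCast, hk, one_zpow]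
  have h1 : g ∈ zpowers g ⊓ 𝒩((Q : Subgroup G)) := ⟨mem_zpowers g, hg⟩
  have h2 := hp.inf_normalizer_sylow Q
  have h3 : g ∈ zpowers g ⊓ (Q : Subgroup G) := h2 ▸ h1
  exact h3.2

theorem inverts {Y : Subgroup G} (hY : ∀ a ∈ Y, ∀ b ∈ Y, a * b = b * a) {z : G} (hz : z ∈ 𝒩(Y))
    (zz : z * z = 1) (hf : Y ⊓ 𝒞[z] = ⊥) : ∀ u ∈ Y, z * u * z⁻¹ = u⁻¹ := by
  intro u hu
  have hv : z * u * z⁻¹ ∈ Y := (mem_normalizer_iff.1 hz u).1 hu
  have zi : z⁻¹ = z := inv_eq_of_mul_eq_one_right zz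
  have hw : u * (z * u * z⁻¹) ∈ Y ⊓ 𝒞[z] := by
    refine ⟨mul_mem hu hv, mem_cent1.2 ?_⟩
    calc u * (z * u * z⁻¹) * z = u * z * u := by group
      _ = z * z * u * z * u := by rw [zz, one_mul]
      _ = z * (z * u * z⁻¹ * u) := by rw [zi]; group
      _ = z * (u * (z * u * z⁻¹)) := by rw [hY _ hv _ hu]
  rw [hf, mem_bot] at hw
  exact eq_inv_of_mul_eq_one_right hw

namespace Sc

variable (h : Sc p G m)
include h

theorem cardP (Q : Sylow p G) : Nat.card Q = p ^ 2 := by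
  have hp : p.Prime := Fact.out
  have hm : ¬ p ∣ m := ndvd h.dv
  have m0 : m ≠ 0 := fun e => hm (e ▸ dvd_zero p)
  rw [Sylow.card_eq_multiplicity, h.card, Nat.factorization_mul (pow_ne_zero 2 hp.ne_zero) m0,
    Finsupp.add_apply, Nat.factorization_eq_zero_of_not_dvd hm, hp.factorization_pow]
  simp

theorem comm (Q : Sylow p G) {x y : G} (hx : x ∈ Q) (hy : y ∈ Q) : x * y = y * x :=
  congrArg Subtype.val
    (IsPGroup.commutative_of_card_eq_prime_sq (h.cardP Q) (⟨x, hx⟩ : Q) ⟨y, hy⟩)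

theorem pow_eq (Q : Sylow p G) {x : G} (hx : x ∈ Q) : x ^ p ^ 2 = 1 := by
  have := pow_card_eq_one' (x := (⟨x, hx⟩ : (Q : Subgroup G)))
  rw [h.cardP Q] at this
  exact congrArg Subtype.val this

theorem syl {R : Subgroup G} (hR : Nat.card R = p ^ 2) : ∃ Q : Sylow p G, (Q : Subgroup G) = R := by
  have hp : p.Prime := Fact.out
  have e := R.card_mul_index
  rw [hR, h.card] at e
  have e' : R.index = m := Nat.eq_of_mul_eq_mul_left (pow_pos hp.pos 2) e
  exact ⟨(IsPGroup.of_card hR).toSylow (e' ▸ ndvd h.dv), rfl⟩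

theorem pelt {z : G} (hz : p ^ 2 ∣ Nat.card 𝒞[z]) : z ^ p ^ 2 = 1 := by
  obtain ⟨K, hK⟩ := Sylow.exists_subgroup_card_pow_prime p hz
  obtain ⟨Q, hQ⟩ := h.syl (R := K.map (𝒞[z]).subtype)
    (by rw [card_map_of_injective (subtype_injective _), hK])
  have h1 : (Q : Subgroup G) ≤ 𝒞[z] := hQ ▸ map_subtype_le K
  exact h.pow_eq Q (h.cent Q (le_cent1_iff.1 h1))

theorem dv_of {D : Subgroup G} (hD : ¬ p ∣ Nat.card D) : 2 * Nat.card D ∣ p ^ 4 - 1 := by
  have hp : p.Prime := Fact.out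
  have d := D.card_subgroup_dvd_card
  rw [h.card] at d
  have c : Nat.Coprime (Nat.card D) (p ^ 2) :=
    ((hp.coprime_iff_not_dvd.2 hD).symm).pow_right 2
  exact (Nat.mul_dvd_mul_left 2 (c.dvd_of_dvd_mul_left d)).trans h.dv

theorem quot (P : Sylow p G) {x : G} (hx : x ∈ P) (ox : orderOf x = p) {c : G} (hc : c ∈ 𝒞[x])
    (hcP : ∀ u ∈ P, c * u * c⁻¹ * u⁻¹ ∈ zpowers x) : c ∈ P := by
  have hxP : zpowers x ≤ P := zpowers_le.2 hx
  have hn : c ∈ 𝒩((P : Subgroup G)) := by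
    apply mem_norm_of_cj_le
    intro y hy
    obtain ⟨u, hu, rfl⟩ := mem_cj'.1 hy
    have := mul_mem (hxP (hcP u hu)) hu
    rwa [inv_mul_cancel_right] at this
  have hcp : c ^ p ∈ 𝒞((P : Subgroup G)) := by
    intro u hu
    obtain ⟨w, hw, e⟩ : ∃ w ∈ zpowers x, c * u = w * u * c :=
      ⟨_, hcP u hu, by group⟩
    have cw : Commute c w := by
      rw [← cent_zpowers] at hc
      exact (hc w hw).symm
    have key : ∀ n : ℕ, c ^ n * u = w ^ n * u * c ^ n := by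
      intro n
      induction n with
      | zero => simp
      | succ n ih =>
        calc c ^ (n + 1) * u = c * (c ^ n * u) := by rw [pow_succ', mul_assoc]
          _ = c * w ^ n * u * c ^ n := by rw [ih]; group
          _ = w ^ n * (c * u) * c ^ n := by rw [(cw.pow_right n).eq]; group
          _ = w ^ (n + 1) * u * c ^ (n + 1) := by rw [e, pow_succ, pow_succ']; group
    have wp : w ^ p = 1 := by
      apply orderOf_dvd_iff_pow_eq_one.1
      rw [← ox]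
      exact orderOf_dvd_of_mem_zpowers hw
    rw [key p, wp, one_mul]
  have := h.pow_eq P (h.cent P hcp)
  rw [← pow_mul, ← pow_succ'] at this
  exact mem_of_norm P hn this

/-- two subgroups of order `p` centralising a non-trivial `p'`-element `z` are conjugate in `C(z)` -/
theorem conj_of_cent {x y z : G} (ox : orderOf x = p) (oy : orderOf y = p) (hz : z ^ p ^ 2 ≠ 1)
    (hx : x ∈ 𝒞[z]) (hy : y ∈ 𝒞[z]) : ∃ g ∈ 𝒞[z], cj g (zpowers x) = zpowers y :=
  BaseA.conj_in (p := p) (k := 1) (zpowers_le.2 hx) (zpowers_le.2 hy)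
    (by rw [Nat.card_zpowers, ox, pow_one]) (by rw [Nat.card_zpowers, oy, pow_one])
    fun hd => hz (h.pelt hd)

/-- Burnside's fusion lemma -/
theorem fusion (P : Sylow p G) {X : Subgroup G} {g : G} (h1 : X ≤ P) (h2 : cj g X ≤ P) :
    ∃ n ∈ 𝒩((P : Subgroup G)), cj n X = cj g X := by
  have hp : p.Prime := Fact.out
  have ab : ∀ {Y : Subgroup G}, Y ≤ P → (P : Subgroup G) ≤ 𝒞(Y) :=
    fun hY a ha y hy => h.comm P (hY hy) ha
  have hA : cj g (P : Subgroup G) ≤ 𝒞(cj g X) := by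
    rw [← cj_centralizer]
    exact cj_mono g (ab h1)
  have hH : ¬ p ^ (2 + 1) ∣ Nat.card 𝒞(cj g X) := by
    intro hd
    have d := hd.trans (card_subgroup_dvd_card _)
    rw [h.card, pow_succ] at d
    exact ndvd h.dv (Nat.dvd_of_mul_dvd_mul_left (pow_pos hp.pos 2) d)
  obtain ⟨c, hc, e⟩ := BaseA.conj_in hA (ab h2) (by rw [card_cj, h.cardP P]) (h.cardP P) hH
  refine ⟨c * g, mem_norm_iff_cj.2 (by rw [cj_mul, e]), ?_⟩
  rw [cj_mul, cj_eq_of_mem_cent hc]

end Sc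

end Cfsg.Agent.PS2
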