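import Cfsg.Agent.PS2.Defs
import Cfsg.Agent.H16.CharTools
import Cfsg.Agent.S0169

/-! Groups of the order of `PSL₂(p²)` (notes/PS2.md, section Chr). -/

set_option autoImplicit false
set_option linter.unusedSectionVars false

namespace Cfsg.Agent.PS2

open Subgroup Cfsg.Agent.H49

variable {G : Type*} [Group G] [Finite G] {p : ℕ} [Fact p.Prime] {m : ℕ} {S : Subgroup G}

/-- the trace of a central element on the fixed space of the image of `f` -/
theorem Chr.avg {H Q : Type*} [Group H] [Finite H] [Group Q] [Fintype Q] (f : Q →* H) {y : H} (hy : y ∈ center H)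
    {θ : H → ℂ} (h : IsCharacter H θ) : ∃ k : ℕ, ∑ u, θ (f u) = k * Nat.card Q ∧ (k = 0 → ∑ u, θ (y * f u) = 0) ∧
      (k = 1 → ‖∑ u, θ (y * f u)‖ = Nat.card Q) := by
  refine H5.isCharacter_induction (P := fun θ => ∃ k : ℕ, ∑ u, θ (f u) = k * Nat.card Q ∧
    (k = 0 → ∑ u, θ (y * f u) = 0) ∧ (k = 1 → ‖∑ u, θ (y * f u)‖ = Nat.card Q)) ⟨0, by simp⟩ (fun φ hφ => ?_) ?_ h
  · have hc := H5.isCharacter_of_isIrr hφ
    obtain ⟨ω, h1, -, h2⟩ := H5.exists_apply_mul_eq_of_norm_eq hc (H5.norm_apply_of_mem_center hφ hy)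
    obtain ⟨k, hk⟩ := H5.exists_nat_classInner (H5.isCharacter_comp hc f) H5.isCharacter_one
    have h0 : (Nat.card Q : ℂ) ≠ 0 := Nat.cast_ne_zero.2 Nat.card_pos.ne'
    simp only [classInner, map_one, mul_one] at hk
    rw [inv_mul_eq_iff_eq_mul₀ h0, mul_comm] at hk
    refine ⟨k, hk, ?_, ?_⟩ <;> rintro rfl <;> simp only [h2, ← Finset.mul_sum, hk] <;> simp [h1]
  · rintro φ ψ - - ⟨k, a1, a2, a3⟩ ⟨l, b1, b2, b3⟩
    simp only [Pi.add_apply, Finset.sum_add_distrib]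
    refine ⟨k + l, by rw [a1, b1]; push_cast; ring, fun e => by rw [a2 (by omega), b2 (by omega), add_zero], fun e => ?_⟩
    rcases (by omega : k = 0 ∧ l = 1 ∨ k = 1 ∧ l = 0) with ⟨e1, e2⟩ | ⟨e1, e2⟩
    · rw [a2 e1, zero_add, b3 e2]
    · rw [b2 e2, add_zero, a3 e1]

theorem Chr.cardQ (hc : Nat.card G = p ^ 2 * m) (hm : ¬ p ∣ m) (Q : Sylow p G) : Nat.card (Q : Subgroup G) = p ^ 2 := by
  have hp : p.Prime := Fact.out
  have m0 : m ≠ 0 := by rintro rfl; exact hm (dvd_zero p)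
  rw [Q.card_eq_multiplicity, hc, Nat.factorization_mul (pow_ne_zero _ hp.ne_zero) m0, Finsupp.add_apply,
    Nat.factorization_eq_zero_of_not_dvd hm, hp.factorization_pow, Finsupp.single_eq_same]

theorem chr (χ : IrrCharacter G) (hχ : (χ : G → ℂ) 1 = (p ^ 2 : ℕ)) (hc : Nat.card G = p ^ 2 * m)
    (hm : ¬ p ∣ m) : (∀ U : Subgroup G, U.Normal → IsPGroup p U → U = ⊥) ∧
      ∃ Z : Subgroup G, Z.Normal ∧ ¬ p ∣ Nat.card Z ∧
        ∀ (Q : Sylow p G) (y : G), y ∈ 𝒞((Q : Subgroup G)) → ¬ p ∣ orderOf y → y ∈ Z := by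
  classical
  have hp : p.Prime := Fact.out
  have hd : H16.dg χ = p ^ 2 := by exact_mod_cast (H16.dg_cast χ).symm.trans hχ
  have h0 : ∀ g, p ∣ orderOf g → (χ : G → ℂ) g = 0 := fun g => H16.zero_of_defect_zero χ hp (hd ▸ hc) hm
  have hq : ((p ^ 2 : ℕ) : ℂ) ≠ 0 := Nat.cast_ne_zero.2 (pow_ne_zero _ hp.ne_zero)
  refine ⟨fun U hU h => ?_, H5.charCenter (H16.irr_char χ), inferInstance, fun h => ?_, fun Q y hy ho => ?_⟩
  · obtain ⟨Q, hQ⟩ := h.exists_le_sylow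
    obtain ⟨χ, n, ρ, hρ, rfl⟩ := χ
    have ab := (IsPGroup.isMulCommutative_of_card_eq_prime_sq (Chr.cardQ hc hm Q)).is_comm.comm
    obtain ⟨c, e⟩ := S0169.result ρ U fun a ha b hb => congrArg Subtype.val (ab ⟨a, hQ ha⟩ ⟨b, hQ hb⟩)
    have e1 : Module.finrank ℂ (Fin n → ℂ) = p ^ 2 := by exact_mod_cast (ρ.char_one).symm.trans hχ
    obtain ⟨k, hk⟩ := h.exists_card_eq
    have e2 := U.card_mul_index
    rw [e, e1, hc, hk, mul_left_comm, mul_right_inj' (pow_ne_zero _ hp.ne_zero)] at e2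
    rcases k with _ | k
    · exact card_eq_one.1 hk
    · exact (hm (e2 ▸ (dvd_pow_self p k.succ_ne_zero).mul_right c)).elim
  · obtain ⟨g, hg⟩ := exists_prime_orderOf_dvd_card' p h
    have := g.2
    rw [H5.mem_charCenter, h0 g (by rw [Subgroup.orderOf_coe, hg]), hχ, norm_zero] at this
    exact hq (norm_eq_zero.1 this.symm)
  · have := Fintype.ofFinite (Q : Subgroup G)
    have hle : (Q : Subgroup G) ≤ 𝒞[y] := fun u hu => mem_cent1.2 (hy u hu)
    obtain ⟨k, a1, -, a3⟩ := Chr.avg (inclusion hle) (y := ⟨y, mem_cent1.2 rfl⟩)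
      (mem_center_iff.2 fun g => Subtype.ext (mem_cent1.1 g.2)) (H5.isCharacter_restrict (H16.irr_char χ) 𝒞[y])
    have hz : ∀ w : G, w ∈ 𝒞((Q : Subgroup G)) → ¬ p ∣ orderOf w →
        ∑ u : (Q : Subgroup G), (χ : G → ℂ) (w * u) = (χ : G → ℂ) w := fun w hw ho => by
      rw [Finset.sum_eq_single 1 (fun u _ hu => h0 _ ?_) (fun h => (h (Finset.mem_univ _)).elim)]
      · rw [coe_one, mul_one]
      obtain ⟨j, hj⟩ := IsPGroup.iff_orderOf.1 Q.isPGroup' u
      rw [Commute.orderOf_mul_eq_mul_orderOf_of_coprime (hw u u.2).symm (by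
        rw [Subgroup.orderOf_coe, hj]; exact (hp.coprime_iff_not_dvd.2 ho).symm.pow_right _), Subgroup.orderOf_coe, hj]
      refine (dvd_pow_self p ?_).mul_left _
      rintro rfl
      exact hu (orderOf_eq_one_iff.1 hj)
    have b1 := hz 1 (one_mem _) (by rw [orderOf_one]; exact hp.not_dvd_one)
    simp only [one_mul] at b1
    rw [Chr.cardQ hc hm] at a1 a3
    have k1 : k = 1 := by exact_mod_cast (mul_eq_right₀ hq).1 (a1.symm.trans (b1.trans hχ))
    rw [H5.mem_charCenter, ← hz y hy ho, hχ, Complex.norm_natCast]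
    exact a3 k1

end Cfsg.Agent.PS2
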