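import Cfsg.Agent.PS2.BaseA

/-! Groups of the order of `PSL₂(p²)` (notes/PS2.md, section Cnt). -/

set_option autoImplicit false
set_option linter.unusedSectionVars false

namespace Cfsg.Agent.PS2

open Subgroup Cfsg.Agent.H49

variable {G : Type*} [Group G] [Finite G] {p : ℕ} [Fact p.Prime] {m : ℕ} {S : Subgroup G}

theorem cnt_ov_orbit (P : Sylow p G) {Y H : Subgroup G} (hYP : Y ≤ P) (hH : H ≤ 𝒩(Y))
    (hle : ∀ Q : Sylow p G, Y ≤ Q → (Q : Subgroup G) ≤ H) :
    (ov p Y).ncard = 𝒩((P : Subgroup G)).relIndex H := by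
  have e1 : ov p Y = MulAction.orbit H P := by
    ext Q
    constructor
    · intro hQ
      have hQ' : Y ≤ Q := hQ
      obtain ⟨g, hg⟩ := MulAction.exists_smul_eq H (P.subtype (hle P hYP)) (Q.subtype (hle Q hQ'))
      refine ⟨g, ?_⟩
      rw [Sylow.smul_subtype] at hg
      exact Sylow.subtype_injective hg
    · rintro ⟨g, rfl⟩
      intro y hy
      have hg := hH g.2
      rw [Subgroup.mem_normalizer_iff''] at hg
      have h1 : (g : G)⁻¹ * y * g ∈ (P : Subgroup G) := hYP ((hg y).1 hy)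
      show y ∈ (((g : G) • P : Sylow p G) : Subgroup G)
      rw [Sylow.coe_subgroup_smul, Subgroup.mem_pointwise_smul_iff_inv_smul_mem]
      simpa [MulAut.smul_def] using h1
  rw [e1, ← MulAction.index_stabilizer, Subgroup.relIndex]
  congr 1
  ext g
  rw [MulAction.mem_stabilizer_iff, Subgroup.mem_subgroupOf]
  exact Sylow.smul_eq_iff_mem_normalizer

theorem Sc.ov_card (h : Sc p G m) (P : Sylow p G) {x : G} (hx : x ∈ P) :
    (ov p (zpowers x)).ncard = 𝒩((P : Subgroup G)).relIndex 𝒞[x] ∧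
    (ov p (zpowers x)).ncard = 𝒩((P : Subgroup G)).relIndex 𝒩(zpowers x) := by
  have hYP : zpowers x ≤ (P : Subgroup G) := by
    rw [Subgroup.zpowers_le]; exact hx
  have hC : 𝒞[x] ≤ 𝒩(zpowers x) := by
    intro g hg
    rw [Subgroup.mem_centralizer_singleton_iff] at hg
    have hc : ∀ y ∈ zpowers x, g * y * g⁻¹ = y := by
      rintro y ⟨k, rfl⟩
      have : Commute g (x ^ k) := (show Commute g x from hg).zpow_right k
      show g * x ^ k * g⁻¹ = x ^ k
      rw [this.eq]; group
    rw [Subgroup.mem_normalizer_iff]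
    intro y
    constructor
    · intro hy; rw [hc y hy]; exact hy
    · intro hy
      have h2 := hc _ hy
      have : g * y * g⁻¹ = y := by
        have h3 : g * (g * y * g⁻¹) * g⁻¹ = g * y * g⁻¹ := h2
        calc g * y * g⁻¹ = g⁻¹ * (g * (g * y * g⁻¹) * g⁻¹) * g := by group
          _ = g⁻¹ * (g * y * g⁻¹) * g := by rw [h3]
          _ = y := by group
      rw [← this]; exact hy
  have hle : ∀ Q : Sylow p G, zpowers x ≤ Q → (Q : Subgroup G) ≤ 𝒞[x] := by
    intro Q hQ u hu
    rw [Subgroup.mem_centralizer_singleton_iff]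
    exact h.comm Q hu (hQ (mem_zpowers x))
  exact ⟨cnt_ov_orbit P hYP hC hle, cnt_ov_orbit P hYP le_rfl fun Q hQ => (hle Q hQ).trans hC⟩

theorem cnt_lines (h : Sc p G m) (P : Sylow p G) {𝒳 : Set (Subgroup G)}
    (h1 : ∀ Y ∈ 𝒳, Y ≤ P ∧ Nat.card Y = p) : 𝒳.ncard ≤ p + 1 := by
  classical
  have hp : p.Prime := Fact.out
  have := Fintype.ofFinite G
  have : Fintype (Subgroup G) := Fintype.ofFinite _
  set X : Finset (Subgroup G) := 𝒳.toFinset with hX
  set W : Finset G := Finset.univ.filter fun u => u ≠ 1 ∧ zpowers u ∈ 𝒳 with hW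
  have hmap : Set.MapsTo (fun u : G => zpowers u) (W : Set G) (X : Set (Subgroup G)) := by
    intro u hu
    have := (Finset.mem_filter.1 (Finset.mem_coe.1 hu)).2.2
    simpa [hX] using this
  have hs := Finset.card_eq_sum_card_fiberwise hmap
  have hf : ∀ Y ∈ X, (W.filter fun u => zpowers u = Y).card = p - 1 := by
    intro Y hY
    have hY' : Y ∈ 𝒳 := by simpa [hX] using hY
    obtain ⟨-, hc⟩ := h1 Y hY'
    have e : (W.filter fun u => zpowers u = Y) = (Finset.univ.filter fun u => u ∈ Y).erase 1 := by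
      ext u
      simp only [hW, Finset.mem_filter, Finset.mem_univ, true_and, Finset.mem_erase]
      constructor
      · rintro ⟨⟨a, -⟩, c⟩
        exact ⟨a, c ▸ mem_zpowers u⟩
      · rintro ⟨a, b⟩
        have hle : zpowers u ≤ Y := by rw [Subgroup.zpowers_le]; exact b
        have hd : Nat.card (zpowers u) ∣ p := hc ▸ Subgroup.card_dvd_of_le hle
        have he : zpowers u = Y := by
          rcases (Nat.dvd_prime hp).1 hd with h1' | h1'
          · exact absurd (Subgroup.zpowers_eq_bot.1 (Subgroup.card_eq_one.1 h1')) a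
          · exact Subgroup.eq_of_le_of_card_ge hle (by rw [h1', hc])
        exact ⟨⟨a, he ▸ hY'⟩, he⟩
    rw [e, Finset.card_erase_of_mem (by simp [Y.one_mem]), ← hc, Nat.card_eq_fintype_card,
      Fintype.card_subtype]
  rw [Finset.sum_congr rfl hf, Finset.sum_const, smul_eq_mul] at hs
  have hsub : W ⊆ (Finset.univ.filter fun u => u ∈ (P : Subgroup G)).erase 1 := by
    intro u hu
    obtain ⟨a, b⟩ := (Finset.mem_filter.1 hu).2
    simp only [Finset.mem_filter, Finset.mem_univ, true_and, Finset.mem_erase]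
    exact ⟨a, (h1 _ b).1 (mem_zpowers u)⟩
  have hle := Finset.card_le_card hsub
  have hPc : (Finset.univ.filter fun u => u ∈ (P : Subgroup G)).card = p ^ 2 := by
    rw [← h.cardP P, Nat.card_eq_fintype_card, Fintype.card_subtype]
  rw [Finset.card_erase_of_mem (by simp [(P : Subgroup G).one_mem]), hPc, hs] at hle
  rw [Set.ncard_eq_toFinset_card' 𝒳]
  have h5 := h.h5
  obtain ⟨q, rfl⟩ : ∃ q, p = q + 1 := ⟨p - 1, by omega⟩
  have e2 : (q + 1) ^ 2 - 1 = (q + 1 + 1) * q := by
    have : (q + 1) ^ 2 = (q + 1 + 1) * q + 1 := by ring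
    omega
  rw [e2, Nat.add_sub_cancel] at hle
  exact Nat.le_of_mul_le_mul_right hle (by omega)

theorem cnt_free (h : Sc p G m) (P : Sylow p G) :
    p ^ 2 ∣ {Q : Sylow p G | (P : Subgroup G) ⊓ Q = ⊥}.ncard := by
  let A : SubMulAction (P : Subgroup G) (Sylow p G) :=
    { carrier := {Q | (P : Subgroup G) ⊓ Q = ⊥}
      smul_mem' := by
        intro c Q hQ
        have hQ' : (P : Subgroup G) ⊓ Q = ⊥ := hQ
        show (P : Subgroup G) ⊓ (((c : G) • Q : Sylow p G) : Subgroup G) = ⊥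
        rw [eq_bot_iff]
        rintro y ⟨hy1, hy2⟩
        have hy3 : y ∈ (((c : G) • Q : Sylow p G) : Subgroup G) := hy2
        rw [Sylow.coe_subgroup_smul, Subgroup.mem_pointwise_smul_iff_inv_smul_mem] at hy3
        have hy4 : (c : G)⁻¹ * y * c ∈ (Q : Subgroup G) := by simpa [MulAut.smul_def] using hy3
        have hy5 : (c : G)⁻¹ * y * c ∈ (P : Subgroup G) ⊓ Q :=
          Subgroup.mem_inf.2 ⟨(P : Subgroup G).mul_mem ((P : Subgroup G).mul_mem
            ((P : Subgroup G).inv_mem c.2) hy1) c.2, hy4⟩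
        rw [hQ', Subgroup.mem_bot] at hy5
        rw [Subgroup.mem_bot]
        calc y = c * ((c : G)⁻¹ * y * c) * (c : G)⁻¹ := by group
          _ = 1 := by rw [hy5]; group }
  have hfree : ∀ b : A, MulAction.stabilizer (P : Subgroup G) b = ⊥ := by
    intro b
    rw [eq_bot_iff]
    intro u hu
    rw [MulAction.mem_stabilizer_iff] at hu
    have h1 : (u : G) • (b : Sylow p G) = b := congrArg Subtype.val hu
    have h2 := Sylow.smul_eq_iff_mem_normalizer.1 h1
    have h3 : (u : G) ∈ (b : Sylow p G) := mem_of_norm (b : Sylow p G) h2 (h.pow_eq P u.2)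
    have hb : (P : Subgroup G) ⊓ (b : Sylow p G) = ⊥ := b.2
    have h4 : (u : G) ∈ (P : Subgroup G) ⊓ (b : Sylow p G) := ⟨u.2, h3⟩
    rw [hb, Subgroup.mem_bot] at h4
    rw [Subgroup.mem_bot]
    exact Subtype.ext h4
  have e := Nat.card_congr (MulAction.selfEquivOrbitsQuotientProd hfree)
  rw [Nat.card_prod, h.cardP P] at e
  have e2 : {Q : Sylow p G | (P : Subgroup G) ⊓ Q = ⊥}.ncard = Nat.card A := by
    rw [← Nat.card_coe_set_eq]; rfl
  rw [e2, e]
  exact Dvd.intro_left _ rfl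

theorem Sc.cnt (h : Sc p G m) (P : Sylow p G) {k : ℕ} {𝒳 : Set (Subgroup G)}
    (h1 : ∀ Y ∈ 𝒳, Y ≤ P ∧ Nat.card Y = p ∧ (ov p Y).ncard = k + 1)
    (h2 : ∀ Q : Sylow p G, Q ≠ P → (P : Subgroup G) ⊓ Q ≠ ⊥ → (P : Subgroup G) ⊓ Q ∈ 𝒳) :
    𝒳.ncard ≤ p + 1 ∧ ∃ s, Nat.card (Sylow p G) = 1 + 𝒳.ncard * k + p ^ 2 * s ∧
      ((∃ Q : Sylow p G, (P : Subgroup G) ⊓ Q = ⊥) → 0 < s) := by
  classical
  have hp : p.Prime := Fact.out
  refine ⟨cnt_lines h P fun Y hY => ⟨(h1 Y hY).1, (h1 Y hY).2.1⟩, ?_⟩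
  obtain ⟨s, hs⟩ := cnt_free h P
  have : Fintype (Sylow p G) := Fintype.ofFinite _
  have : Fintype (Subgroup G) := Fintype.ofFinite _
  refine ⟨s, ?_, ?_⟩
  · set X : Finset (Subgroup G) := 𝒳.toFinset with hX
    set B : Finset (Sylow p G) :=
      Finset.univ.filter fun Q => Q ≠ P ∧ (P : Subgroup G) ⊓ Q ≠ ⊥ with hB
    have hmap : Set.MapsTo (fun Q : Sylow p G => (P : Subgroup G) ⊓ Q) (B : Set (Sylow p G))
        (X : Set (Subgroup G)) := by
      intro Q hQ
      obtain ⟨a, b⟩ := (Finset.mem_filter.1 (Finset.mem_coe.1 hQ)).2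
      simpa [hX] using h2 Q a b
    have hsum := Finset.card_eq_sum_card_fiberwise hmap
    have hf : ∀ Y ∈ X, (B.filter fun Q : Sylow p G => (P : Subgroup G) ⊓ Q = Y).card = k := by
      intro Y hY
      have hY' : Y ∈ 𝒳 := by simpa [hX] using hY
      obtain ⟨a, b, c⟩ := h1 Y hY'
      have hYne : Y ≠ ⊥ := by
        rintro rfl
        rw [Subgroup.card_bot] at b
        exact hp.one_lt.ne b
      have e : (B.filter fun Q : Sylow p G => (P : Subgroup G) ⊓ Q = Y) =
          (ov p Y).toFinset.erase P := by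
        ext Q
        simp only [hB, Finset.mem_filter, Finset.mem_univ, true_and, Finset.mem_erase,
          Set.mem_toFinset]
        constructor
        · rintro ⟨⟨a1, -⟩, c1⟩
          exact ⟨a1, show Y ≤ Q from c1 ▸ inf_le_right⟩
        · rintro ⟨a1, b1⟩
          have b2 : Y ≤ Q := b1
          have hle : Y ≤ (P : Subgroup G) ⊓ Q := le_inf a b2
          have hne : (P : Subgroup G) ⊓ Q ≠ ⊥ := fun h0 => hYne (le_bot_iff.1 (h0 ▸ hle))
          have hc := (h1 _ (h2 Q a1 hne)).2.1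
          exact ⟨⟨a1, hne⟩, (Subgroup.eq_of_le_of_card_ge hle (by rw [hc, b])).symm⟩
      have hPm : P ∈ (ov p Y).toFinset := Set.mem_toFinset.2 a
      rw [e, Finset.card_erase_of_mem hPm, ← Set.ncard_eq_toFinset_card', c, Nat.add_sub_cancel]
    rw [Finset.sum_congr rfl hf, Finset.sum_const, smul_eq_mul] at hsum
    have hPne : (P : Subgroup G) ≠ ⊥ := by
      intro h0
      have := h.cardP P
      rw [h0, Subgroup.card_bot] at this
      exact (Nat.one_lt_pow two_ne_zero hp.one_lt).ne this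
    set A : Finset (Sylow p G) := Finset.univ.filter fun Q => (P : Subgroup G) ⊓ Q = ⊥ with hA
    have hAc : A.card = p ^ 2 * s := by
      rw [← hs, Set.ncard_eq_toFinset_card']
      congr 1
      ext Q
      simp [hA]
    have hsplit := Finset.card_filter_add_card_filter_not (s := (Finset.univ : Finset (Sylow p G)))
      (fun Q : Sylow p G => (P : Subgroup G) ⊓ Q = ⊥)
    have hB' : (Finset.univ.filter fun Q : Sylow p G => ¬ (P : Subgroup G) ⊓ Q = ⊥) = insert P B := by
      ext Q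
      simp only [hB, Finset.mem_filter, Finset.mem_univ, true_and, Finset.mem_insert]
      constructor
      · intro a
        by_cases hq : Q = P
        · exact Or.inl hq
        · exact Or.inr ⟨hq, a⟩
      · rintro (rfl | ⟨-, a⟩)
        · rw [inf_idem]; exact hPne
        · exact a
    have hPB : P ∉ B := by simp [hB]
    rw [hB', Finset.card_insert_of_notMem hPB, hsum, ← hA, hAc, Finset.card_univ] at hsplit
    rw [Nat.card_eq_fintype_card, ← hsplit, Set.ncard_eq_toFinset_card' 𝒳]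
    ring
  · rintro ⟨Q, hQ⟩
    have : 0 < {Q : Sylow p G | (P : Subgroup G) ⊓ Q = ⊥}.ncard :=
      (Set.ncard_pos (Set.toFinite _)).2 ⟨Q, hQ⟩
    rw [hs] at this
    exact Nat.pos_of_mul_pos_left this

end Cfsg.Agent.PS2
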