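import Cfsg.Agent.PS2.CopA

/-! Groups of the order of `PSL₂(p²)` (notes/PS2.md, section Cop). -/

set_option autoImplicit false
set_option linter.unusedSectionVars false

namespace Cfsg.Agent.PS2

open Subgroup Cfsg.Agent.H49

variable {G : Type*} [Group G] [Finite G] {p : ℕ} [Fact p.Prime] {m : ℕ} {S : Subgroup G}

variable {Q D R : Subgroup G}

namespace Cop

/-- a subgroup containing a Sylow subgroup of `D` for every prime contains `D` -/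
theorem all_le {C : Subgroup G} (h : ∀ r : ℕ, r.Prime → ∃ R ≤ C, ¬ r ∣ R.relIndex D) : D ≤ C := by
  have h1 : C.relIndex D = 1 := by
    by_contra hne
    obtain ⟨r, hr, hd⟩ := Nat.exists_prime_and_dvd hne
    obtain ⟨R, hRC, hR⟩ := h r hr
    exact hR (hd.trans (relIndex_dvd_of_le_left D hRC))
  exact relIndex_eq_one.1 h1

theorem dv (hRD : R ≤ D) (hd : 2 * Nat.card D ∣ p ^ 4 - 1) : 2 * Nat.card R ∣ p ^ 4 - 1 :=
  (Nat.mul_dvd_mul_left 2 (card_dvd_of_le hRD)).trans hd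

theorem small (h5 : 5 < p) (hM : Mer p) (hR : IsPGroup 2 R) (hd : 2 * Nat.card R ∣ p ^ 4 - 1) {c : ℕ}
    (e : Nat.card R = (p + 1) * c) : c ≤ 2 := by
  obtain ⟨i, hi⟩ := hR.exists_card_eq
  have hc : c ∣ 2 ^ i := hi ▸ e ▸ Dvd.intro_left _ rfl
  obtain ⟨j, -, rfl⟩ := (Nat.dvd_prime_pow Nat.prime_two).1 hc
  by_contra hlt
  have hj : 2 ≤ j := by
    by_contra hj
    have : j = 0 ∨ j = 1 := by omega
    rcases this with rfl | rfl <;> simp at hlt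
  obtain ⟨k, rfl⟩ := Nat.exists_eq_add_of_le hj
  exact hM.four h5 hd ⟨2 ^ k, by rw [e, pow_add]; ring⟩

/-- the odd part of `D` is centralised -/
theorem odd_le (h5 : 5 < p) (hQ : IsPGroup p Q) (hN : Q ≤ 𝒩(D)) (hd : 2 * Nat.card D ∣ p ^ 4 - 1)
    {C : Subgroup G} (hC : D ⊓ 𝒞(Q) ≤ C) (hRC : R ≤ C) (hR : ¬ 2 ∣ R.relIndex D) : D ≤ C := by
  refine all_le fun r hr => ?_
  by_cases h2 : r = 2
  · exact ⟨R, hRC, h2 ▸ hR⟩
  · have := Fact.mk hr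
    obtain ⟨R', h1, h2', h3, h4⟩ := inv_syl hQ (ndvd hd) hN r
    rcases idx h5 hQ h3 hr h2' (dv h1 hd) with h | h
    · exact ⟨R', (le_inf h1 h).trans hC, h4⟩
    · exact absurd h.1 h2

end Cop

open Cop

theorem triv (h5 : 5 < p) (hQ : IsPGroup p Q) (hN : Q ≤ 𝒩(D)) (hd : 2 * Nat.card D ∣ p ^ 4 - 1) :
    D ≤ 𝒞(Q) ∨ (Mer p ∧ p + 1 ∣ Nat.card D) := by
  obtain ⟨R, h1, h2, h3, h4⟩ := inv_syl hQ (ndvd hd) hN 2
  rcases idx h5 hQ h3 Nat.prime_two h2 (dv h1 hd) with h | ⟨-, hM, e⟩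
  · exact Or.inl (odd_le h5 hQ hN hd inf_le_right h h4)
  · exact Or.inr ⟨hM, (Dvd.intro _ e.symm).trans (card_dvd_of_le h1)⟩

theorem fpf (h5 : 5 < p) (hQ : IsPGroup p Q) (hN : Q ≤ 𝒩(D)) (hd : 2 * Nat.card D ∣ p ^ 4 - 1)
    (hf : D ⊓ 𝒞(Q) = ⊥) : D = ⊥ ∨ (Mer p ∧ Nat.card D = p + 1) := by
  obtain ⟨R, h1, h2, h3, h4⟩ := inv_syl hQ (ndvd hd) hN 2
  have hDR : D ≤ R := odd_le h5 hQ hN hd (hf ▸ bot_le) le_rfl h4
  obtain rfl : R = D := le_antisymm h1 hDR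
  rcases idx h5 hQ h3 Nat.prime_two h2 hd with h | ⟨-, hM, e⟩
  · exact Or.inl (by rw [← hf, inf_eq_left.2 h])
  · exact Or.inr ⟨hM, by rw [e, hf, card_bot, mul_one]⟩

theorem exists_cent (h5 : 5 < p) (hQ : Nat.card Q = p ^ 2) (hN : Q ≤ 𝒩(D))
    (hd : 2 * Nat.card D ∣ p ^ 4 - 1) : ∃ y ∈ Q, y ≠ 1 ∧ y ∈ 𝒞(D) := by
  have hQp : IsPGroup p Q := IsPGroup.of_card hQ
  have hab : ∀ u ∈ Q, ∀ v ∈ Q, u * v = v * u := fun u hu v hv =>
    congrArg Subtype.val ((IsPGroup.commutative_of_card_eq_prime_sq hQ) ⟨u, hu⟩ ⟨v, hv⟩)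
  obtain ⟨R, h1, h2, h3, h4⟩ := inv_syl hQp (ndvd hd) hN 2
  have hdR := dv h1 hd
  have key : ∀ y ∈ Q, R ≤ 𝒞[y] → y ∈ 𝒞(D) := fun y hy h =>
    le_cent1_iff.1 (odd_le h5 hQp hN hd (inf_le_right.trans (cent_le_cent1 hy)) h h4)
  by_cases hR : R ≤ 𝒞(Q)
  · have : Nontrivial Q := Finite.one_lt_card_iff_nontrivial.1 (by rw [hQ]; nlinarith)
    obtain ⟨y, hy⟩ := exists_ne (1 : Q)
    exact ⟨y, y.2, fun e => hy (Subtype.ext e), key y y.2 (hR.trans (cent_le_cent1 y.2))⟩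
  obtain ⟨-, hM, e⟩ := (idx h5 hQp h3 Nat.prime_two h2 hdR).resolve_left hR
  have hc := small h5 hM h2 hdR e
  obtain ⟨w, hwR, hw⟩ := SetLike.not_le_iff_exists.1 hR
  have hlt : Nat.card R < Nat.card Q := by
    rw [hQ, e]; nlinarith
  have hni : ¬ Function.Injective (fun u : Q => (⟨u * w * (u : G)⁻¹, conj_mem_of_norm h3 u.2 hwR⟩ : R)) :=
    fun hi => absurd (Nat.card_le_card_of_injective _ hi) (not_le.2 hlt)
  obtain ⟨u, v, huv, hne⟩ := Function.not_injective_iff.1 hni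
  have huv' : (u : G) * w * (u : G)⁻¹ = v * w * (v : G)⁻¹ := congrArg Subtype.val huv
  have hy : (v : G)⁻¹ * u ∈ Q := mul_mem (inv_mem v.2) u.2
  have hy1 : (v : G)⁻¹ * u ≠ 1 := fun h => hne (Subtype.ext (inv_mul_eq_one.1 h).symm)
  have hwy : w ∈ 𝒞[(v : G)⁻¹ * u] := by
    rw [mem_cent1]
    calc w * ((v : G)⁻¹ * u) = (v : G)⁻¹ * (v * w * (v : G)⁻¹) * u := by group
      _ = _ := by rw [← huv']; group
  generalize (v : G)⁻¹ * u = y at hy hy1 hwy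
  refine ⟨y, hy, hy1, key y hy ?_⟩
  have hY : zpowers y ≤ Q := zpowers_le_of_mem hy
  rcases idx h5 (hQp.to_le hY) (hY.trans h3) Nat.prime_two h2 hdR with h | ⟨-, -, e'⟩
  · rwa [cent_zpowers] at h
  exfalso
  have hc' := small h5 hM h2 hdR e'
  rw [cent_zpowers] at hc'
  have hw1 : w ≠ 1 := fun h => hw (h ▸ one_mem _)
  obtain ⟨s, hs, hsw⟩ : ∃ s ∈ Q, s * w * s⁻¹ ≠ w := by
    by_contra hn
    push Not at hn
    exact hw fun s hs => mul_inv_eq_iff_eq_mul.1 (hn s hs)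
  have hsC : s ∈ 𝒞[y] := mem_cent1.2 (hab s hs y hy)
  have m2 : s * w * s⁻¹ ∈ R ⊓ 𝒞[y] :=
    mem_inf.2 ⟨conj_mem_of_norm h3 hs hwR, mul_mem (mul_mem hsC hwy) (inv_mem hsC)⟩
  have := Fintype.ofFinite ↥(R ⊓ 𝒞[y])
  rw [Nat.card_eq_fintype_card] at hc'
  refine absurd hc' (not_le.2 (Fintype.two_lt_card_iff.2 ⟨1, ⟨w, hwR, hwy⟩, ⟨_, m2⟩, ?_, ?_, ?_⟩))
  · exact fun h => hw1 (congrArg Subtype.val h).symm
  · exact fun h => hw1 (conj_eq_one_iff.1 (congrArg Subtype.val h).symm)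
  · exact fun h => hsw (congrArg Subtype.val h).symm

end Cfsg.Agent.PS2
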