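import Cfsg.Agent.PS2.Ar
import Cfsg.Agent.S0023

/-! Groups of the order of `PSL₂(p²)` (notes/PS2.md, section CopA). -/

set_option autoImplicit false
set_option linter.unusedSectionVars false

namespace Cfsg.Agent.PS2

open Subgroup Cfsg.Agent.H49

variable {G : Type*} [Group G] [Finite G] {p : ℕ} [Fact p.Prime] {m : ℕ} {S : Subgroup G}

variable {Q D R : Subgroup G}

theorem inv_syl (hQ : IsPGroup p Q) (hD : ¬ p ∣ Nat.card D) (hN : Q ≤ 𝒩(D)) (r : ℕ) [Fact r.Prime] :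
    ∃ R ≤ D, IsPGroup r R ∧ Q ≤ 𝒩(R) ∧ ¬ r ∣ R.relIndex D := by
  obtain ⟨n, hn⟩ := hQ.exists_card_eq
  have := hQ.isNilpotent
  obtain ⟨P, hP⟩ := S0023.result Q D hN
    (hn ▸ Nat.Coprime.pow_left n ((Nat.Prime.coprime_iff_not_dvd Fact.out).2 hD)) (Or.inl inferInstance) r
  refine ⟨_, map_subtype_le _, P.isPGroup'.map _, hP, ?_⟩
  rw [relIndex, subgroupOf, comap_map_eq_self_of_injective D.subtype_injective]
  exact P.not_dvd_index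

theorem cong (hQ : IsPGroup p Q) (hN : Q ≤ 𝒩(R)) :
    Nat.card R ≡ Nat.card ↥(R ⊓ 𝒞(Q)) [MOD p] := by
  letI : MulAction Q R :=
    { smul := fun q x => ⟨q * x * q⁻¹, (mem_normalizer_iff.1 (hN q.2) _).1 x.2⟩
      one_smul := fun x => Subtype.ext (show (1 : G) * x * 1⁻¹ = x by simp)
      mul_smul := fun a b x => Subtype.ext (show (a * b : G) * x * (a * b : G)⁻¹ = a * (b * x * (b : G)⁻¹) * (a : G)⁻¹ by group) }
  have e : Nat.card (MulAction.fixedPoints Q R) = Nat.card ↥(R ⊓ 𝒞(Q)) := Nat.card_congr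
    { toFun := fun x => ⟨x.1.1, x.1.2, fun q hq => mul_inv_eq_iff_eq_mul.1 (congrArg Subtype.val (x.2 ⟨q, hq⟩))⟩
      invFun := fun x => ⟨⟨x.1, x.2.1⟩, fun q => Subtype.ext (mul_inv_eq_iff_eq_mul.2 (x.2.2 q q.2))⟩
      left_inv := fun _ => rfl
      right_inv := fun _ => rfl }
  exact e ▸ hQ.card_modEq_card_fixedPoints R

theorem idx (h5 : 5 < p) (hQ : IsPGroup p Q) (hN : Q ≤ 𝒩(R)) {r : ℕ} (hr : r.Prime) (hR : IsPGroup r R)
    (hd : 2 * Nat.card R ∣ p ^ 4 - 1) :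
    R ≤ 𝒞(Q) ∨ (r = 2 ∧ Mer p ∧ Nat.card R = (p + 1) * Nat.card ↥(R ⊓ 𝒞(Q))) := by
  have := Fact.mk hr
  have h1 := cong hQ hN
  obtain ⟨i, hi⟩ := hR.exists_card_eq
  have h2 : Nat.card ↥(R ⊓ 𝒞(Q)) ∣ Nat.card R := card_dvd_of_le inf_le_left
  obtain ⟨c, hc⟩ := h2
  obtain ⟨k, -, rfl⟩ := (Nat.dvd_prime_pow hr).1 (show c ∣ r ^ i from hi ▸ hc ▸ dvd_mul_left _ _)
  rcases Nat.eq_zero_or_pos k with rfl | hk
  · rw [pow_zero, mul_one] at hc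
    exact Or.inl (inf_eq_left.1 (eq_of_le_of_card_ge inf_le_left hc.le))
  · have h3 : ¬ p ∣ Nat.card ↥(R ⊓ 𝒞(Q)) := fun h => ndvd hd (h.trans ⟨_, hc⟩)
    have h4 : r ^ k ≡ 1 [MOD p] := by
      refine Nat.ModEq.cancel_left_of_coprime (c := Nat.card ↥(R ⊓ 𝒞(Q)))
        ((Nat.Prime.coprime_iff_not_dvd Fact.out).2 h3) ?_
      rwa [← hc, mul_one]
    obtain ⟨rfl, e⟩ := pp h5 hr hk ((Nat.mul_dvd_mul_left 2 (hc ▸ dvd_mul_left _ _)).trans hd) h4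
    exact Or.inr ⟨rfl, ⟨k, e.symm⟩, by rw [hc, e, mul_comm]⟩

end Cfsg.Agent.PS2
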