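import Cfsg.Agent.H49.Basic

/-! Groups of order dividing `|PSL₂(p²)|` with a self-centralising Sylow `p`-subgroup (notes/PS2.md). -/

set_option autoImplicit false

namespace Cfsg.Agent.PS2

open Subgroup Cfsg.Agent.H49

/-- `p + 1` is a power of two -/
def Mer (p : ℕ) : Prop := ∃ b, p + 1 = 2 ^ b

/-- order `p² m` with `2 m ∣ p⁴ - 1` and self-centralising Sylow `p`-subgroups -/
structure Sc (p : ℕ) (G : Type*) [Group G] (m : ℕ) : Prop where
  h5 : 5 < p
  card : Nat.card G = p ^ 2 * m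
  dv : 2 * m ∣ p ^ 4 - 1
  cent : ∀ Q : Sylow p G, 𝒞((Q : Subgroup G)) ≤ Q

/-- moreover `G = S Q` with `S` a simple normal subgroup with trivial centraliser -/
structure Core (p : ℕ) (G : Type*) [Group G] (S : Subgroup G) (m : ℕ) : Prop extends Sc p G m where
  nS : S.Normal
  simple : IsSimpleGroup S
  cS : 𝒞(S) = ⊥
  pS : p ∣ Nat.card S
  four : 4 ∣ Nat.card S
  sup : ∀ Q : Sylow p G, S ⊔ Q = ⊤

/-- distinct Sylow `p`-subgroups meet trivially -/
def TI (p : ℕ) (G : Type*) [Group G] : Prop :=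
  ∀ P Q : Sylow p G, P ≠ Q → (P : Subgroup G) ⊓ Q = ⊥

/-- the Sylow `p`-subgroups containing `Y` -/
def ov (p : ℕ) {G : Type*} [Group G] (Y : Subgroup G) : Set (Sylow p G) := {Q | Y ≤ Q}

/-- two-point stabiliser in the action on the Sylow `p`-subgroups -/
abbrev St {p : ℕ} {G : Type*} [Group G] (P Q : Sylow p G) : Subgroup G :=
  MulAction.stabilizer G P ⊓ MulAction.stabilizer G Q

/-- fixed points on the Sylow `p`-subgroups -/
abbrev Fx (p : ℕ) {G : Type*} [Group G] (g : G) : Set (Sylow p G) := MulAction.fixedBy (Sylow p G) g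

end Cfsg.Agent.PS2
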