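import Cfsg.Agent.PS2.BaseA
import Cfsg.Agent.PS2.CopA
import Cfsg.Agent.H42.SylIn
import Cfsg.Agent.H49.SylowOf

/-! Groups of the order of `PSL₂(p²)` (notes/PS2.md, section Idx). -/

set_option autoImplicit false
set_option linter.unusedSectionVars false

namespace Cfsg.Agent.PS2

open Subgroup Cfsg.Agent.H49

variable {G : Type*} [Group G] [Finite G] {p : ℕ} [Fact p.Prime] {m : ℕ} {S : Subgroup G}

theorem idx_burn (h2 : Nat.Coprime p 2) {V : Subgroup G} {x : G} (hx : x ∈ V) (ox : orderOf x = p)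
    (hN : 𝒩(zpowers x) ≤ 𝒞[x]) (hV : ¬ p ^ 2 ∣ Nat.card V) :
    ∃ D ≤ V, ¬ p ∣ Nat.card D ∧ V ≤ 𝒩(D) ∧ ∀ T ≤ V, IsPGroup 2 T → T ≤ D := by
  have c : Nat.card (zpowers (⟨x, hx⟩ : V)) = p := by rw [Nat.card_zpowers, orderOf_mk, ox]
  have hp : IsPGroup p (zpowers (⟨x, hx⟩ : V)) := IsPGroup.of_card (n := 1) (by rw [c, pow_one])
  have hi : ¬ p ∣ (zpowers (⟨x, hx⟩ : V)).index := fun k => hV (by
    rw [← card_mul_index (zpowers (⟨x, hx⟩ : V)), c, pow_two]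
    exact Nat.mul_dvd_mul_left _ k)
  have hP : normalizer ((hp.toSylow hi : Subgroup V) : Set V) ≤ centralizer ((hp.toSylow hi : Subgroup V) : Set V) := by
    intro g hg
    have : (g : G) ∈ 𝒩(zpowers x) := H42.mem_normalizer_of_conj_mem fun y hy => by
      obtain ⟨k, rfl⟩ := mem_zpowers_iff.1 hy
      obtain ⟨l, e⟩ := mem_zpowers_iff.1 (H42.conj_mem_of_mem_normalizer hg (zpow_mem (mem_zpowers (⟨x, hx⟩ : V)) k))
      exact mem_zpowers_iff.2 ⟨l, by simpa using congrArg Subtype.val e⟩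
    have e : Commute (⟨x, hx⟩ : V) g := Subtype.ext (mem_cent1.1 (hN this)).symm
    rintro _ ⟨k, rfl⟩
    exact e.zpow_left k
  refine ⟨(MonoidHom.transferSylow _ hP).ker.map V.subtype, map_subtype_le _, ?_, norm_map_subtype _,
    fun T hT h t ht => ⟨⟨t, hT ht⟩, ?_, rfl⟩⟩
  · rw [card_map_of_injective (subtype_injective V)]
    exact MonoidHom.not_dvd_card_ker_transferSylow _ hP
  · obtain ⟨k, hk⟩ := h ⟨t, ht⟩
    have e : (⟨t, hT ht⟩ : V) ^ 2 ^ k = 1 := Subtype.ext (by simpa using congrArg Subtype.val hk)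
    refine orderOf_eq_one_iff.1 (Nat.eq_one_of_dvd_coprimes (h2.pow_right k) ?_ (orderOf_dvd_of_pow_eq_one ?_))
    · exact (_root_.orderOf_dvd_natCard _).trans c.dvd
    · rw [← map_pow, e, map_one]

theorem Sc.idx2 (h : Sc p G m) {x : G} (ox : orderOf x = p) (hN : 𝒩(zpowers x) ≤ 𝒞[x])
    (hi : 𝒞[x].index = p ^ 2 + 1) (h2 : 2 ∣ Nat.card 𝒞[x]) : False := by
  have pp : p.Prime := Fact.out
  have co : Nat.Coprime p 2 := (Nat.coprime_primes pp Nat.prime_two).2 (by have := h.h5; omega)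
  obtain ⟨T, hT, -⟩ := H42.exists_sylIn (p := 2) (R := ⊥) (H := 𝒞[x]) IsPGroup.of_bot bot_le
  obtain ⟨T1, hT1, le⟩ := H42.exists_sylIn (p := 2) (H := ⊤) hT.isP le_top
  have i2 : T.relIndex T1 = 2 := by
    have e1 := relIndex_mul_relIndex T T1 ⊤ le le_top
    have e2 := relIndex_mul_relIndex T 𝒞[x] ⊤ hT.le le_top
    rw [relIndex_top_right (H := 𝒞[x]), hi, ← e1] at e2
    obtain ⟨k, hk⟩ := hT1.isP.index (T.subgroupOf T1)
    change T.relIndex T1 = _ at hk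
    have m4 := (sq_mod (p := p) h.h5).1
    have o1 := hT.ndvd
    have o2 := hT1.ndvd
    rw [hk] at e2 ⊢
    obtain ⟨c, hc⟩ : ∃ c, p ^ 2 + 1 = 2 * (2 * c + 1) := ⟨p ^ 2 / 4, by omega⟩
    rcases k with _ | _ | k
    · exact absurd ⟨_, by rw [← one_mul (T1.relIndex ⊤), ← pow_zero 2, ← e2, hc, mul_left_comm]⟩ o2
    · rfl
    · have : 2 ∣ T.relIndex 𝒞[x] * (2 * c + 1) :=
        ⟨2 ^ k * T1.relIndex ⊤, Nat.eq_of_mul_eq_mul_left two_pos (by rw [mul_left_comm, ← hc, e2]; ring)⟩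
      rcases (Nat.Prime.dvd_mul Nat.prime_two).1 this with a | a
      · exact absurd a o1
      · omega
  have nT : T1 ≤ 𝒩(T) := (normal_subgroupOf_iff_le_normalizer le).1 (normal_of_index_eq_two i2)
  have T0 : T ≠ ⊥ := fun e => hT.ndvd (by rwa [e, relIndex_bot_left])
  obtain ⟨z, hz, z1, zc⟩ : ∃ z ∈ T, z ≠ 1 ∧ T1 ≤ 𝒞[z] := by
    obtain ⟨⟨z, hz⟩, z1⟩ := ne_bot_iff_exists_ne_one.1 (inf_center_ne_bot_of_nilpotent hT1.isP.isNilpotent le nT T0)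
    exact ⟨z, hz.1, fun e => z1 (Subtype.ext e), le_cent1_iff.2 hz.2⟩
  have hV : ¬ p ^ 2 ∣ Nat.card ↥(𝒞[z] ⊓ 𝒩(T)) := fun k => by
    obtain ⟨j, hj⟩ := hT.isP ⟨z, hz⟩
    exact z1 (orderOf_eq_one_iff.1 (Nat.eq_one_of_dvd_coprimes (co.pow 2 j)
      (orderOf_dvd_of_pow_eq_one (h.pelt (k.trans (card_dvd_of_le inf_le_left))))
      (orderOf_dvd_of_pow_eq_one (congrArg Subtype.val hj))))
  have xT : x ∈ 𝒞(T) := le_cent1_iff.1 hT.le
  have xV : x ∈ 𝒞[z] ⊓ 𝒩(T) := ⟨cent_le_cent1 hz xT, cent_le_norm _ xT⟩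
  obtain ⟨D, hD, nd, hn, h3⟩ := idx_burn co xV ox hN hV
  have hp : IsPGroup p (zpowers x) := IsPGroup.of_card (n := 1) (by rw [Nat.card_zpowers, ox, pow_one])
  obtain ⟨R, r1, r2, r3, r4⟩ := inv_syl hp nd ((zpowers_le.2 xV).trans hn) 2
  have sR : H42.SylIn 2 R D := ⟨r1, r2, r4⟩
  have t1 := h3 T1 (le_inf zc nT) hT1.isP
  have c1 := sR.card_eq (hT1.of_le t1 le_top)
  have TR : T ≤ R := by
    obtain ⟨g, hg, e⟩ := sR.exists_conj hT.isP (le.trans t1)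
    intro t ht
    simpa [mul_assoc] using e _ (conj_mem_of_norm' le_rfl (hD hg).2 ht)
  have e := cong hp r3
  rw [cent_zpowers, hT.eq_of_le (r2.to_le inf_le_left) inf_le_right (le_inf TR hT.le), c1,
    ← H42.card_mul_relIndex le, i2] at e
  obtain ⟨k, hk⟩ := hT.isP.exists_card_eq
  have := (Nat.modEq_iff_dvd' (by omega)).1 e.symm
  rw [mul_two, Nat.add_sub_cancel, hk] at this
  exact pp.one_lt.ne' (Nat.eq_one_of_dvd_coprimes (co.pow_right k) dvd_rfl this)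

end Cfsg.Agent.PS2
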