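import Cfsg.Agent.PS2.RegA

/-! Groups of the order of `PSL₂(p²)` (notes/PS2.md, section Reg). -/

set_option autoImplicit false
set_option linter.unusedSectionVars false

namespace Cfsg.Agent.PS2

open Subgroup Cfsg.Agent.H49

variable {G : Type*} [Group G] [Finite G] {p : ℕ} [Fact p.Prime] {m : ℕ} {S : Subgroup G}

theorem Core.reg_idx (h : Core p G S m) (P : Sylow p G) {x : G} (hx : x ∈ P) (ox : orderOf x = p)
    (hn : ¬ 𝒞[x] ≤ 𝒩((P : Subgroup G))) : p ^ 2 + 1 ≤ 𝒞[x].index ∧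
      (𝒞[x].index = p ^ 2 + 1 → 𝒩(zpowers x) ≤ 𝒞[x]) ∧ ∃ Q : Sylow p G, (P : Subgroup G) ⊓ Q = ⊥ := by
  obtain ⟨g, hg⟩ := h.reg P hx ox hn
  have x1 : x ≠ 1 := fun e => (Fact.out : p.Prime).ne_one (by rw [← ox, e, orderOf_one])
  have nP : g * x * g⁻¹ ∉ P := fun e => x1 (hg x hx (mem_cent1.2 (h.toSc.comm P hx e)))
  have key : ∀ n u : G, u ∈ P → n * x * n⁻¹ ∈ P → n⁻¹ * (u * g) ∉ 𝒞[x] := fun n u hu hn e => nP (by
    have e1 : g * x * g⁻¹ = u⁻¹ * (n * x * n⁻¹) * u := by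
      calc _ = u⁻¹ * n * (n⁻¹ * (u * g) * x) * g⁻¹ := by group
        _ = _ := by rw [mem_cent1.1 e]; group
    rw [e1]
    exact (P : Subgroup G).mul_mem ((P : Subgroup G).mul_mem ((P : Subgroup G).inv_mem hu) hn) hu)
  let f : Option P → G ⧸ 𝒞[x] := fun o => o.elim ((1 : G) : G ⧸ 𝒞[x]) fun u => ((u * g : G) : G ⧸ 𝒞[x])
  have hx' : (1 : G) * x * 1⁻¹ ∈ P := by simpa using hx
  have inj : Function.Injective f := by
    rintro (_ | u) (_ | v) e
    · rfl
    · exact (key 1 v v.2 hx' (QuotientGroup.eq.1 e)).elim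
    · exact (key 1 u u.2 hx' (QuotientGroup.eq.1 e.symm)).elim
    · have e1 := mem_cent1.1 (QuotientGroup.eq.1 e)
      have e2 := hg ((u : G)⁻¹ * v) ((P : Subgroup G).mul_mem ((P : Subgroup G).inv_mem u.2) v.2) (mem_cent1.2 (by
        calc _ = g * (((u : G) * g)⁻¹ * (v * g) * x) * g⁻¹ := by group
          _ = _ := by rw [e1]; group))
      exact congrArg some (Subtype.ext (inv_mul_eq_one.1 e2))
  have hc : Nat.card (Option P) = p ^ 2 + 1 := by rw [Finite.card_option, h.toSc.cardP]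
  refine ⟨hc ▸ Nat.card_le_card_of_injective f inj, fun e n hn => ?_, g • P, (eq_bot_iff_forall _).2 fun u hu => ?_⟩
  · obtain ⟨_ | u, ho⟩ := ((Nat.bijective_iff_injective_and_card f).2 ⟨inj, hc.trans e.symm⟩).2 (n : G)
    · simpa using QuotientGroup.eq.1 ho
    · exact (key n u u.2 ((zpowers_le (H := (P : Subgroup G))).2 hx
        ((mem_normalizer_iff.1 hn x).1 (mem_zpowers x))) (QuotientGroup.eq.1 ho.symm)).elim
  · refine hg u hu.1 (mem_cent1.2 (h.toSc.comm (g • P) hu.2 ?_))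
    exact (P : Subgroup G).smul_mem_pointwise_smul x (MulAut.conj g) hx

end Cfsg.Agent.PS2
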