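import Cfsg.Agent.PS2.Base
import Cfsg.Agent.H49.Prod

/-! Groups of the order of `PSL₂(p²)` (notes/PS2.md, section RegA). -/

set_option autoImplicit false
set_option linter.unusedSectionVars false

namespace Cfsg.Agent.PS2

open Subgroup Cfsg.Agent.H49

variable {G : Type*} [Group G] [Finite G] {p : ℕ} [Fact p.Prime] {m : ℕ} {S : Subgroup G}

namespace RegA

theorem gen {R : Subgroup G} (hR : Nat.card R = p ^ 2) {x u : G} (hx : x ∈ R) (ox : orderOf x = p) (hu : u ∈ R)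
    (h : u ∉ zpowers x) : R = zpowers u ⊔ zpowers x := by
  have hp : p.Prime := Fact.out
  have le : zpowers u ⊔ zpowers x ≤ R := sup_le (zpowers_le.2 hu) (zpowers_le.2 hx)
  have d1 := card_dvd_of_le le
  have d2 := card_dvd_of_le (le_sup_right : zpowers x ≤ zpowers u ⊔ zpowers x)
  rw [hR] at d1
  rw [Nat.card_zpowers, ox] at d2
  obtain ⟨k, hk, e⟩ := (Nat.dvd_prime_pow hp).1 d1
  refine (eq_of_le_of_card_ge le ?_).symm
  rw [hR, e]
  interval_cases k
  · rw [e, pow_zero, Nat.dvd_one] at d2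
    exact absurd d2 hp.one_lt.ne'
  · refine absurd ?_ h
    rw [eq_of_le_of_card_ge (le_sup_right : zpowers x ≤ zpowers u ⊔ zpowers x)
      (by rw [e, Nat.card_zpowers, ox, pow_one])]
    exact mem_sup_left (mem_zpowers u)
  · exact le_rfl

theorem mem_zp {x u : G} (ox : orderOf x = p) (h : u ∈ zpowers x) (h1 : u ≠ 1) : x ∈ zpowers u := by
  have hp : p.Prime := Fact.out
  have d := orderOf_dvd_of_mem_zpowers h
  rw [ox] at d
  have e := (hp.eq_one_or_self_of_dvd _ d).resolve_left (mt orderOf_eq_one_iff.1 h1)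
  rw [eq_of_le_of_card_ge (zpowers_le.2 h) (by rw [Nat.card_zpowers, Nat.card_zpowers, e, ox])]
  exact mem_zpowers x

theorem exists_l {W : Subgroup G} (h : ¬ IsPGroup p W) : ∃ l ∈ W, l ≠ 1 ∧ (orderOf l).Coprime p := by
  have hp : p.Prime := Fact.out
  obtain ⟨⟨w, hw⟩, e⟩ := not_forall.1 h
  obtain ⟨k, n, hn, e1⟩ := Nat.exists_eq_pow_mul_and_not_dvd (orderOf_pos w).ne' p hp.one_lt.ne'
  refine ⟨w ^ p ^ k, pow_mem hw _, fun e2 => e ⟨k, Subtype.ext e2⟩, ?_⟩
  have : orderOf (w ^ p ^ k) ∣ n := orderOf_dvd_of_pow_eq_one (by rw [← pow_mul, ← e1, pow_orderOf_eq_one])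
  exact ((hp.coprime_iff_not_dvd.2 hn).symm).coprime_dvd_left this

end RegA

theorem Core.reg (h : Core p G S m) (P : Sylow p G) {x : G} (hx : x ∈ P) (ox : orderOf x = p)
    (hn : ¬ 𝒞[x] ≤ 𝒩((P : Subgroup G))) : ∃ g : G, ∀ u ∈ P, u ∈ 𝒞[g * x * g⁻¹] → u = 1 := by
  have hp : p.Prime := Fact.out
  by_contra! hc
  have x1 : x ≠ 1 := fun e => hp.one_lt.ne' (by rw [← ox, e, orderOf_one])
  have PC : (P : Subgroup G) ≤ 𝒞[x] := fun u hu => mem_cent1.2 (h.toSc.comm P hu hx)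
  let W : Subgroup G := ⨆ c : 𝒞[x], cj (c : G) (P : Subgroup G)
  have WC : W ≤ 𝒞[x] := iSup_le fun c => cj_le_of_mem PC c.2
  have lW : ∀ c ∈ 𝒞[x], cj c (P : Subgroup G) ≤ W := fun c hc =>
    le_iSup (fun c : 𝒞[x] => cj (c : G) (P : Subgroup G)) ⟨c, hc⟩
  have hW : ¬ IsPGroup p W := fun e => hn fun c hc => mem_norm_of_cj_le (by
    have := P.3 e (by simpa using lW 1 (one_mem _))
    exact (lW c hc).trans this.le)
  obtain ⟨l, hl, l1, lo⟩ := RegA.exists_l hW
  have key : ∀ y, IsConj x y → y ∉ 𝒞[x] → l ∈ 𝒞[y] := fun y hy hy' => by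
    obtain ⟨g, rfl⟩ := isConj_iff.1 hy
    have : W ≤ (𝒞[x] ⊓ 𝒞[g * x * g⁻¹]) ⊔ zpowers x := iSup_le fun ⟨c, hc'⟩ => by
      obtain ⟨u, hu, e, u1⟩ := hc (c⁻¹ * g)
      have e1 : c * u * c⁻¹ ∈ 𝒞[g * x * g⁻¹] := by
        have := (conj_mem_cj (g := c)).2 e
        rwa [cj_cent1, show c * (c⁻¹ * g * x * (c⁻¹ * g)⁻¹) * c⁻¹ = g * x * g⁻¹ by group] at this
      have e2 : c * u * c⁻¹ ∈ cj c (P : Subgroup G) := conj_mem_cj.2 hu
      have e3 : x ∈ cj c (P : Subgroup G) := by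
        have := (conj_mem_cj (g := c)).2 hx
        rwa [mem_cent1.1 hc', mul_inv_cancel_right] at this
      have e4 : c * u * c⁻¹ ∉ zpowers x := fun k => hy' (by
        have n1 : c * u * c⁻¹ ≠ 1 := by simpa [mul_inv_eq_one] using u1
        have : x ∈ zpowers (c * u * c⁻¹) := RegA.mem_zp ox k n1
        exact mem_cent1_comm.1 (zpowers_le.2 e1 this))
      rw [RegA.gen (p := p) (by rw [card_cj, h.toSc.cardP]) e3 ox e2 e4]
      exact sup_le_sup_right (zpowers_le.2 (mem_inf.2 ⟨cj_le_of_mem PC hc' e2, e1⟩)) _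
    obtain ⟨i, hi, _, ⟨k, rfl⟩, e⟩ := (mem_sup_of_norm_right (inf_le_left.trans fun c hc => mem_norm_iff_cj.2 (by
      rw [cj_zpowers, mem_cent1.1 hc, mul_inv_cancel_right]))).1 (this hl)
    have c1 : Commute i (x ^ k) := Commute.zpow_right (mem_cent1.1 hi.1) k
    have e1 : l ^ p = i ^ p := by
      rw [e, c1.mul_pow, ← zpow_natCast (x ^ k), ← zpow_mul, mul_comm k, zpow_mul, zpow_natCast, ← ox,
        pow_orderOf_eq_one, one_zpow, mul_one]
    obtain ⟨n, hn⟩ := exists_pow_eq_self_of_coprime lo.symm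
    rw [← hn, e1]
    exact pow_mem (pow_mem hi.2 _) _
  let U : Subgroup G := closure ({x} ∪ {y | IsConj x y ∧ y ∉ 𝒞[x]})
  have xU : x ∈ U := Subgroup.subset_closure (Or.inl rfl)
  have UC : U ≤ 𝒞[l] := (closure_le _).2 (by
    rintro y (hy | hy)
    · exact mem_cent1_comm.1 (hy ▸ WC hl)
    · exact mem_cent1_comm.1 (key y hy.1 hy.2))
  have NU : normalClosure {x} ≤ 𝒩(U) := (closure_le _).2 fun y hy => by
    replace hy : IsConj x y := by simpa using Group.mem_conjugatesOfSet_iff.1 hy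
    by_cases e : y ∈ 𝒞[x]
    · refine mem_norm_of_cj_le ?_
      rw [cj_def, MonoidHom.map_closure, closure_le]
      rintro _ ⟨w, hw | hw, rfl⟩
      · change y * w * y⁻¹ ∈ U
        rwa [show w = x from hw, mem_cent1.1 e, mul_inv_cancel_right]
      · refine Subgroup.subset_closure (Or.inr ⟨hw.1.trans (isConj_iff.2 ⟨y, rfl⟩), fun k => hw.2 ?_⟩)
        have := mul_mem (mul_mem (inv_mem e) k) e
        simpa [mul_assoc] using this
    · exact le_normalizer (Subgroup.subset_closure (Or.inr ⟨hy, e⟩))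
  have SN : S ≤ normalClosure {x} := h.le_of_norm
    (fun e => x1 (mem_bot.1 (e ▸ subset_normalClosure rfl))) (by rw [normalizer_eq_top]; exact le_top)
  have SU := h.le_of_norm (U := U) (fun e => x1 (mem_bot.1 (e ▸ xU))) (SN.trans NU)
  refine l1 (mem_bot.1 (h.cS ▸ fun s hs => ?_))
  exact mem_cent1.1 (UC (SU hs))

end Cfsg.Agent.PS2
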