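import Cfsg.Agent.PS2.Cnt
import Cfsg.Agent.PS2.Base

/-! Groups of the order of `PSL₂(p²)` (notes/PS2.md, section TiA). -/

set_option autoImplicit false
set_option linter.unusedSectionVars false

namespace Cfsg.Agent.PS2

open Subgroup Cfsg.Agent.H49

variable {G : Type*} [Group G] [Finite G] {p : ℕ} [Fact p.Prime] {m : ℕ} {S : Subgroup G}

theorem tia_smul_of_mem (P : Sylow p G) {u : G} (hu : u ∈ P) : u • P = P :=
  Sylow.smul_eq_iff_mem_normalizer.2 (le_normalizer hu)

namespace Core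

variable (h : Core p G S m) (ht : TI p G) {P Q : Sylow p G}
include h ht

theorem card_syl : Nat.card (Sylow p G) = p ^ 2 + 1 := by
  have hp : p.Prime := Fact.out
  obtain ⟨P⟩ : Nonempty (Sylow p G) := inferInstance
  have hQ : ∃ Q : Sylow p G, Q ≠ P := by
    by_contra hc
    push Not at hc
    have : Subsingleton (Sylow p G) := ⟨fun a b => (hc a).trans (hc b).symm⟩
    exact h.not_normal P (Sylow.normal_of_subsingleton P)
  obtain ⟨Q, hQ⟩ := hQ
  obtain ⟨-, s, hs, hs0⟩ := h.toSc.cnt P (k := 0) (𝒳 := ∅) (by simp)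
    (fun R hR hne => absurd (ht P R hR.symm) hne)
  have hs1 : 0 < s := hs0 ⟨Q, ht P Q hQ.symm⟩
  have hidx : (P : Subgroup G).index = m := by
    have e := (P : Subgroup G).card_mul_index
    have e2 : Nat.card (P : Subgroup G) = p ^ 2 := h.toSc.cardP P
    rw [e2, h.card] at e
    exact Nat.eq_of_mul_eq_mul_left (pow_pos hp.pos 2) e
  have hd : Nat.card (Sylow p G) ∣ p ^ 4 - 1 := by
    have := P.card_dvd_index
    rw [hidx] at this
    exact this.trans ((Dvd.intro_left 2 rfl).trans h.dv)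
  obtain ⟨u, hu⟩ := hd
  exact (ti_num (p := p) hu.symm (by simpa using hs) hs1).1

theorem free (hQ : P ≠ Q) {u : G} (hu : u ∈ P) (e : u • Q = Q) : u = 1 := by
  have h1 : u ∈ Q := mem_of_norm Q (Sylow.smul_eq_iff_mem_normalizer.1 e) (h.toSc.pow_eq P hu)
  have h2 : u ∈ (P : Subgroup G) ⊓ Q := ⟨hu, h1⟩
  rw [ht P Q hQ] at h2
  exact mem_bot.1 h2

theorem trans (hQ : P ≠ Q) {R : Sylow p G} (hR : P ≠ R) : ∃ u ∈ P, u • Q = R := by
  classical
  let f : ↥(P : Subgroup G) → {R : Sylow p G // R ≠ P} := fun u => ⟨(u : G) • Q, fun e =>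
    hQ (smul_left_cancel (u : G) ((tia_smul_of_mem P u.2).trans e.symm))⟩
  have hf : Function.Injective f := by
    intro a b e
    have e1 : (a : G) • Q = (b : G) • Q := congrArg Subtype.val e
    have e2 : ((b : G)⁻¹ * a) • Q = Q := by rw [mul_smul, e1, inv_smul_smul]
    have e3 := h.free ht hQ (mul_mem (inv_mem b.2) a.2) e2
    exact Subtype.ext (inv_mul_eq_one.1 e3).symm
  have hc : Nat.card {R : Sylow p G // R ≠ P} ≤ Nat.card (P : Subgroup G) := by
    have e2 : Nat.card (P : Subgroup G) = p ^ 2 := h.toSc.cardP P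
    have e3 : Nat.card {R : Sylow p G // R ≠ P} = ({P}ᶜ : Set (Sylow p G)).ncard := rfl
    have e4 := Set.ncard_add_ncard_compl ({P} : Set (Sylow p G))
    rw [Set.ncard_singleton, h.card_syl ht] at e4
    omega
  obtain ⟨u, hu⟩ := (hf.bijective_of_nat_card_le hc).2 ⟨R, hR.symm⟩
  exact ⟨u, u.2, congrArg Subtype.val hu⟩

theorem two_tr (hQ : P ≠ Q) {P' Q' : Sylow p G} (hQ' : P' ≠ Q') : ∃ g : G, g • P = P' ∧ g • Q = Q' := by
  obtain ⟨a, ha⟩ := MulAction.exists_smul_eq G P P'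
  have hne : P' ≠ a • Q := by
    rw [← ha]
    exact fun e => hQ (smul_left_cancel a e)
  obtain ⟨u, hu, e⟩ := h.trans ht hne hQ'
  exact ⟨u * a, by rw [mul_smul, ha, tia_smul_of_mem P' hu], by rw [mul_smul, e]⟩

theorem card_St (hQ : P ≠ Q) : Nat.card G = p ^ 2 * (p ^ 2 + 1) * Nat.card (St P Q) ∧
    2 * Nat.card (St P Q) ∣ p ^ 2 - 1 ∧ 2 ∣ Nat.card (St P Q) := by
  have hp : p.Prime := Fact.out
  set H := MulAction.stabilizer G P with hH
  have h1 : H.index = p ^ 2 + 1 := by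
    rw [hH, MulAction.index_stabilizer, MulAction.orbit_eq_univ, Set.ncard_univ, h.card_syl ht]
  have horb : MulAction.orbit H Q = ({P}ᶜ : Set (Sylow p G)) := by
    ext R
    constructor
    · rintro ⟨g, rfl⟩ e
      have e1 : (g : G) • Q = P := e
      have e2 : (g : G) • P = P := g.2
      exact hQ (smul_left_cancel (g : G) (e2.trans e1.symm))
    · intro hR
      obtain ⟨u, hu, e⟩ := h.trans ht hQ (R := R) (fun e => hR e.symm)
      exact ⟨⟨u, tia_smul_of_mem P hu⟩, e⟩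
  have h2 : (MulAction.stabilizer H Q).index = p ^ 2 := by
    rw [MulAction.index_stabilizer, horb]
    have e4 := Set.ncard_add_ncard_compl ({P} : Set (Sylow p G))
    rw [Set.ncard_singleton, h.card_syl ht] at e4
    omega
  have h3 : MulAction.stabilizer H Q = (St P Q).subgroupOf H := by
    ext g
    simp only [MulAction.mem_stabilizer_iff, mem_subgroupOf, mem_inf]
    exact ⟨fun e => ⟨g.2, e⟩, fun e => e.2⟩
  have h4 : Nat.card (MulAction.stabilizer H Q) = Nat.card (St P Q) := by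
    rw [h3]
    exact Nat.card_congr (subgroupOfEquivOfLe (inf_le_left : St P Q ≤ H)).toEquiv
  have h5 := (MulAction.stabilizer H Q).card_mul_index
  have h6 := H.card_mul_index
  rw [h4, h2] at h5
  rw [h1, ← h5] at h6
  have hG : Nat.card G = p ^ 2 * (p ^ 2 + 1) * Nat.card (St P Q) := by rw [← h6]; ring
  obtain ⟨q1, -, q3, -⟩ := sq_mod (p := p) h.h5
  have hm : m = (p ^ 2 + 1) * Nat.card (St P Q) := by
    have e := h.card
    rw [hG, mul_assoc] at e
    exact (Nat.eq_of_mul_eq_mul_left (pow_pos hp.pos 2) e).symm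
  refine ⟨hG, ?_, ?_⟩
  · have e := h.dv
    rw [hm, q3, show 2 * ((p ^ 2 + 1) * Nat.card (St P Q)) = 2 * Nat.card (St P Q) * (p ^ 2 + 1) by ring] at e
    exact Nat.dvd_of_mul_dvd_mul_right (Nat.succ_pos _) e
  · have e : 4 ∣ Nat.card G := h.four.trans S.card_subgroup_dvd_card
    rw [hG] at e
    by_contra hc
    have o1 : Odd (Nat.card (St P Q)) := Nat.odd_iff.2 (by omega)
    have o2 : Odd (p ^ 2) := Nat.odd_iff.2 (by omega)
    obtain ⟨a, ha⟩ := o2.mul o1
    obtain ⟨b, hb⟩ : ∃ b, p ^ 2 + 1 = 4 * b + 2 := ⟨(p ^ 2 + 1) / 4, by omega⟩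
    have e2 : p ^ 2 * (p ^ 2 + 1) * Nat.card (St P Q) = 4 * (2 * a * b + a + b) + 2 := by
      rw [mul_right_comm, ha, hb]; ring
    omega

end Core

end Cfsg.Agent.PS2
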