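import Cfsg.Agent.PS2.TiA

/-! Groups of the order of `PSL₂(p²)` (notes/PS2.md, section TiB). -/

set_option autoImplicit false
set_option linter.unusedSectionVars false

namespace Cfsg.Agent.PS2

open Subgroup Cfsg.Agent.H49

variable {G : Type*} [Group G] [Finite G] {p : ℕ} [Fact p.Prime] {m : ℕ} {S : Subgroup G}

theorem TiB.nm {P : Sylow p G} {g u : G} (hg : g ∈ MulAction.stabilizer G P) (hu : u ∈ P) : g * u * g⁻¹ ∈ P :=
  (mem_normalizer_iff.1 (Sylow.smul_eq_iff_mem_normalizer.1 hg) u).1 hu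

namespace Core

variable (h : Core p G S m) (ht : TI p G) {P Q : Sylow p G}
include h ht

theorem fix_tr (hQ : P ≠ Q) {g : G} (hg : g ∈ St P Q) {R : Sylow p G} (hR : R ∈ Fx p g) (hP : P ≠ R) :
    ∃ u ∈ (P : Subgroup G) ⊓ 𝒞[g], u • Q = R := by
  obtain ⟨u, hu, rfl⟩ := h.trans ht hQ hP
  refine ⟨u, ⟨hu, ?_⟩, rfl⟩
  have e : (u⁻¹ * (g * u * g⁻¹)) • Q = Q := by
    rw [mul_smul, mul_smul, mul_smul, show g⁻¹ • Q = Q from (inv_mem hg).2, show g • u • Q = u • Q from hR,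
      inv_smul_smul]
  have := h.free ht hQ (mul_mem (inv_mem hu) (TiB.nm hg.1 hu)) e
  rw [inv_mul_eq_one, eq_mul_inv_iff_mul_eq] at this
  exact mem_cent1.2 this

theorem fix_card (hQ : P ≠ Q) {g : G} (hg : g ∈ St P Q) :
    (Fx p g).ncard = 1 + Nat.card ↥((P : Subgroup G) ⊓ 𝒞[g]) := by
  have e : Fx p g = insert P (Set.range fun u : ↥((P : Subgroup G) ⊓ 𝒞[g]) => (u : G) • Q) := by
    ext R
    constructor
    · intro hR
      by_cases c : P = R
      · exact Or.inl c.symm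
      · obtain ⟨u, hu, e⟩ := h.fix_tr ht hQ hg hR c
        exact Or.inr ⟨⟨u, hu⟩, e⟩
    · rintro (rfl | ⟨⟨u, hu⟩, rfl⟩)
      · exact hg.1
      · change g • u • Q = u • Q
        rw [← mul_smul, ← mem_cent1.1 hu.2, mul_smul, show g • Q = Q from hg.2]
  rw [e, Set.ncard_insert_of_notMem, Set.ncard_range_of_injective, add_comm]
  · intro u v (e : (u : G) • Q = (v : G) • Q)
    have := h.free ht hQ (mul_mem (inv_mem v.2.1) u.2.1) (by rw [mul_smul, e, inv_smul_smul])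
    exact Subtype.ext (inv_mul_eq_one.1 this).symm
  · rintro ⟨u, e : (u : G) • Q = P⟩
    have k : (u : G) • P = P := Sylow.smul_eq_iff_mem_normalizer.2 (le_normalizer u.2.1)
    exact hQ (MulAction.injective (u : G) (k.trans e.symm))

theorem fix_cases (hQ : P ≠ Q) {g : G} (hg : g ∈ St P Q) (g1 : g ≠ 1) :
    (P : Subgroup G) ⊓ 𝒞[g] = ⊥ ∨ Nat.card ↥((P : Subgroup G) ⊓ 𝒞[g]) = p := by
  have d := card_dvd_of_le (inf_le_left : (P : Subgroup G) ⊓ 𝒞[g] ≤ P)
  have c := h.toSc.cardP P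
  obtain ⟨k, hk, e⟩ := (Nat.dvd_prime_pow Fact.out).1 (c ▸ d)
  interval_cases k
  · exact .inl (card_eq_one.1 (by rw [e, pow_zero]))
  · exact .inr (by rw [e, pow_one])
  · have := eq_of_le_of_card_ge (inf_le_left : (P : Subgroup G) ⊓ 𝒞[g] ≤ P) (c.trans e.symm).le
    exact absurd (h.free ht hQ (h.cent P (le_cent1_iff.1 (inf_eq_left.1 this))) hg.2) g1

theorem inv_fix {t : G} (tt : t * t = 1) : ∃ P Q : Sylow p G, P ≠ Q ∧ t ∈ St P Q := by
  classical
  have := Fintype.ofFinite (Sylow p G)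
  set σ := MulAction.toPermHom G (Sylow p G) t with hσ
  have s2 : σ ^ 2 = 1 := by rw [hσ, ← map_pow, pow_two, tt, map_one]
  have s1 : Equiv.Perm.sign σ = 1 := h.sign (Equiv.Perm.sign.comp (MulAction.toPermHom G (Sylow p G))) t
  rw [Equiv.Perm.sign_of_pow_two_eq_one s2, neg_one_pow_eq_one_iff_even (by decide), Nat.even_iff] at s1
  have k : Fintype.card (Sylow p G) ≡ Fintype.card (Function.fixedPoints σ) [MOD 2] :=
    Equiv.Perm.card_fixedPoints_modEq (f := (⇑σ : Function.End (Sylow p G))) (n := 1)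
      ((pow_two (M := Function.End (Sylow p G)) ⇑σ).trans (funext fun R => DFunLike.congr_fun (pow_two σ ▸ s2) R))
  have n := h.card_syl ht
  have n4 := (sq_mod h.h5).1
  have le : Fintype.card (Function.fixedPoints σ) ≤ Fintype.card (Sylow p G) := Fintype.card_subtype_le _
  rw [Nat.card_eq_fintype_card] at n
  have f : 1 < Fintype.card (Function.fixedPoints σ) := by
    unfold Nat.ModEq at k
    omega
  obtain ⟨P, Q, e⟩ := Fintype.exists_pair_of_one_lt_card f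
  exact ⟨P, Q, fun c => e (Subtype.ext c), P.2, Q.2⟩

theorem inv_cent (hQ : P ≠ Q) {z : G} (hz : z ∈ St P Q) (hi : ∀ u ∈ P, z * u * z⁻¹ = u⁻¹) :
    St P Q ≤ 𝒞[z] := fun g hg => by
  have c : z⁻¹ * (g * z * g⁻¹) ∈ 𝒞((P : Subgroup G)) := fun u hu => by
    have e := hi _ (TiB.nm (inv_mem hg).1 hu)
    calc u * (z⁻¹ * (g * z * g⁻¹)) = z⁻¹ * (z * u * z⁻¹) * (g * z * g⁻¹) := by group
      _ = z⁻¹ * g * (g⁻¹ * u * g⁻¹⁻¹)⁻¹ * z * g⁻¹ := by rw [hi u hu]; group
      _ = _ := by rw [← e]; group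
  have := h.free ht hQ (h.cent P c) (mul_mem (inv_mem hz) (mul_mem (mul_mem hg hz) (inv_mem hg))).2
  rw [inv_mul_eq_one, eq_mul_inv_iff_mul_eq] at this
  exact mem_cent1.2 this.symm

end Core

end Cfsg.Agent.PS2
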