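import Cfsg.Agent.PS2.TiB
import Cfsg.Agent.H49.Prod

/-! Groups of the order of `PSL₂(p²)` (notes/PS2.md, section TiV). -/

set_option autoImplicit false
set_option linter.unusedSectionVars false

namespace Cfsg.Agent.PS2

open Subgroup Cfsg.Agent.H49

variable {G : Type*} [Group G] [Finite G] {p : ℕ} [Fact p.Prime] {m : ℕ} {S : Subgroup G}

namespace TiV

theorem card_orb {Ω : Type*} [MulAction G Ω] (K : Subgroup G) (x : Ω) {D : Set Ω}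
    (hD : ∀ y, y ∈ D ↔ ∃ v ∈ K, v • x = y) :
    Nat.card K = D.ncard * Nat.card ↥(MulAction.stabilizer G x ⊓ K) := by
  have e : D = MulAction.orbit K x := Set.ext fun y =>
    (hD y).trans ⟨fun ⟨v, a, b⟩ => ⟨⟨v, a⟩, b⟩, fun ⟨v, b⟩ => ⟨v, v.2, b⟩⟩
  rw [e, ← MulAction.index_stabilizer, ← card_inf_mul_relIndex (MulAction.stabilizer G x) K, mul_comm]
  rfl

theorem fx_smul {g v : G} (hv : v ∈ 𝒞[g]) {R : Sylow p G} (hR : R ∈ Fx p g) : v • R ∈ Fx p g := by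
  have e : v * g = g * v := mem_centralizer_singleton_iff.1 hv
  change g • v • R = v • R
  rw [← mul_smul, ← e, mul_smul, show g • R = R from hR]

theorem mv (h : Core p G S m) (ht : TI p G) {g : G} {A B C : Sylow p G} (hA : A ∈ Fx p g) (hB : B ∈ Fx p g)
    (hC : C ∈ Fx p g) (e : A ≠ B) (e' : A ≠ C) : ∃ u ∈ 𝒞[g], u • A = A ∧ u • B = C := by
  obtain ⟨u, hu, k⟩ := h.fix_tr ht e (g := g) ⟨hA, hB⟩ hC e'
  exact ⟨u, hu.2, Sylow.smul_eq_iff_mem_normalizer.2 (le_normalizer hu.1), k⟩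

end TiV

open TiV

namespace Core

variable (h : Core p G S m) (ht : TI p G) {P Q : Sylow p G} (hQ : P ≠ Q) {g : G} (hg : g ∈ St P Q)
  (g1 : g ≠ 1) (hX : Nat.card ↥((P : Subgroup G) ⊓ 𝒞[g]) = p)
include h ht hQ hg g1 hX

theorem tr2 {R R' : Sylow p G} (hR : R ∈ Fx p g) (hR' : R' ∈ Fx p g) (e : R ≠ R') :
    ∃ v ∈ 𝒞[g], v • P = R ∧ v • Q = R' := by
  have hP : P ∈ Fx p g := hg.1
  have hQ' : Q ∈ Fx p g := hg.2
  obtain ⟨v, hv, e1⟩ : ∃ v ∈ 𝒞[g], v • P = R := by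
    by_cases a : Q = R
    · have := h.h5
      obtain ⟨T, t1, t2⟩ := Set.exists_mem_notMem_of_ncard_lt_ncard (s := {P, Q}) (t := Fx p g)
        (by rw [Set.ncard_pair hQ, h.fix_card ht hQ hg, hX]; omega)
      simp only [Set.mem_insert_iff, Set.mem_singleton_iff, not_or] at t2
      obtain ⟨u, a1, -, a2⟩ := mv h ht t1 hP hR t2.1 (a ▸ t2.2)
      exact ⟨u, a1, a2⟩
    · obtain ⟨u, a1, -, a2⟩ := mv h ht hQ' hP hR hQ.symm a
      exact ⟨u, a1, a2⟩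
  obtain ⟨u, a1, a2, a3⟩ := mv h ht hR (fx_smul hv hQ') hR' (fun c => hQ (smul_left_cancel v (e1.trans c))) e
  exact ⟨u * v, mul_mem a1 hv, by rw [mul_smul, e1, a2], by rw [mul_smul, a3]⟩

theorem card_V : Nat.card 𝒞[g] = (p + 1) * p * Nat.card ↥(St P Q ⊓ 𝒞[g]) := by
  have hP : P ∈ Fx p g := hg.1
  have hQ' : Q ∈ Fx p g := hg.2
  have c := h.fix_card ht hQ hg
  rw [hX] at c
  have c1 := card_orb 𝒞[g] P (D := Fx p g) fun R => ⟨fun hR => by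
    rcases eq_or_ne R P with rfl | e
    · exact ⟨1, one_mem _, one_smul _ _⟩
    · obtain ⟨v, a, b, -⟩ := h.tr2 ht hQ hg g1 hX hR hP e
      exact ⟨v, a, b⟩, fun ⟨v, a, b⟩ => b ▸ fx_smul a hP⟩
  have c2 := card_orb (MulAction.stabilizer G P ⊓ 𝒞[g]) Q (D := Fx p g \ {P}) fun R => ⟨fun hR => by
    obtain ⟨v, a, b, c⟩ := h.tr2 ht hQ hg g1 hX hP hR.1 (Ne.symm hR.2)
    exact ⟨v, ⟨b, a⟩, c⟩, fun ⟨v, a, b⟩ => ⟨b ▸ fx_smul a.2 hQ', fun c => hQ (smul_left_cancel v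
      ((show v • P = P from a.1).trans (b.trans c).symm))⟩⟩
  rw [Set.ncard_diff_singleton_of_mem hP, c, ← inf_assoc, inf_comm (MulAction.stabilizer G Q)] at c2
  rw [c1, c2, c, Nat.add_sub_cancel_left, add_comm 1, mul_assoc]

theorem h1_dvd : Nat.card ↥(St P Q ⊓ 𝒞[g]) ∣ p - 1 := by
  obtain ⟨a, b, -⟩ := h.card_St ht hQ
  refine k_dvd h.h5 (card_dvd_of_le inf_le_left) b ?_
  rw [← a, ← h.card_V ht hQ hg g1 hX]
  exact card_subgroup_dvd_card _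

end Core

end Cfsg.Agent.PS2
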